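import Cfsg.Agent.Transfer.PPrimeExp.Final
import Cfsg.Agent.Core.BurnsidePQ
import Cfsg.Agent.Core.Schmidt

/-!
A finite group all of whose `p'`-subgroups are abelian of exponent dividing `p - 1` is solvable.
-/

set_option autoImplicit false
set_option linter.unusedSectionVars false

namespace Cfsg.Agent.Transfer.PPrimeExp

open Cfsg

universe u

theorem isSolvable_main : ∀ (n : ℕ) {G : Type u} [Group G] [Finite G], Nat.card G = n → ∀ {p : ℕ}, p.Prime →
    (∀ H : Subgroup G, (Nat.card H).Coprime p → IsMulCommutative H ∧ ∀ x ∈ H, x ^ (p - 1) = 1) →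
    Group.IsSolvable G := by
  intro n
  induction n using Nat.strong_induction_on with
  | _ n ih =>
  intro G _ _ hn p hp h
  haveI := Fact.mk hp
  subst hn
  rcases Nat.lt_or_ge p 5 with hp5 | hp5
  · refine Core.isSolvable_of_primeFactors_card_le_two (le_trans (Finset.card_le_card (t := {p, 2}) ?_) Finset.card_le_two)
    intro q hq
    rw [Nat.mem_primeFactors] at hq
    by_cases hqp : q = p
    · simp [hqp]
    haveI := Fact.mk hq.1
    obtain ⟨x, hx⟩ := exists_prime_orderOf_dvd_card' q hq.2.1
    have hd : q ∣ p - 1 := hx ▸ orderOf_dvd_of_pow_eq_one ((h (Subgroup.zpowers x)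
      (by rw [Nat.card_zpowers, hx]; exact (Nat.coprime_primes hq.1 hp).mpr hqp)).2 x (Subgroup.mem_zpowers x))
    have h2 := hq.1.two_le
    have hp4 : p ≠ 4 := by rintro rfl; exact absurd hp (by norm_num)
    have := Nat.le_of_dvd (by have := hp.two_le; omega) hd
    simp only [Finset.mem_insert, Finset.mem_singleton]
    omega
  have hsubG : ∀ H : Subgroup G, H ≠ ⊤ → Group.IsSolvable H := by
    intro H hH
    have hlt : Nat.card H < Nat.card G :=
      lt_of_le_of_ne (Subgroup.card_le_card_group H) fun e => hH (Subgroup.eq_top_of_card_eq H e)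
    refine ih _ hlt rfl hp fun K hK => ?_
    obtain ⟨hc, he⟩ := h (K.map H.subtype) (by rwa [Subgroup.card_map_of_injective H.subtype_injective])
    refine ⟨⟨⟨fun a b => ?_⟩⟩, fun x hx => ?_⟩
    · have e := commute_of_mem (K.map H.subtype) (Subgroup.mem_map_of_mem H.subtype a.2)
        (Subgroup.mem_map_of_mem H.subtype b.2)
      exact Subtype.ext (Subtype.ext e)
    · exact Subtype.ext (he _ (Subgroup.mem_map_of_mem H.subtype hx))
  rcases subsingleton_or_nontrivial G with hs | hnt
  · exact Group.isSolvable_of_comm fun a b => Subsingleton.elim _ _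
  by_cases hN : ∃ N : Subgroup G, N.Normal ∧ N ≠ ⊥ ∧ N ≠ ⊤
  · obtain ⟨N, hNn, hb, ht⟩ := hN
    haveI := hNn
    set f := QuotientGroup.mk' N
    have hf : Function.Surjective f := QuotientGroup.mk'_surjective N
    haveI := hsubG N ht
    refine (Group.isSolvable_iff_subgroup_quotient N).mpr ⟨inferInstance, ?_⟩
    have hlt : Nat.card (G ⧸ N) < Nat.card G := by
      rw [Subgroup.card_eq_card_quotient_mul_card_subgroup N]
      exact lt_mul_of_one_lt_right Nat.card_pos ((Subgroup.one_lt_card_iff_ne_bot N).mpr hb)
    -- `p'`-subgroups of proper preimages lift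
    have hlift : ∀ Q : Subgroup (G ⧸ N), Q ≠ ⊤ → (Nat.card Q).Coprime p →
        IsMulCommutative Q ∧ ∀ x ∈ Q, x ^ (p - 1) = 1 := by
      intro Q hQ hQc
      set L := Q.comap f with hL
      have hLmap : L.map f = Q := Subgroup.map_comap_eq_self_of_surjective hf Q
      have hLt : L ≠ ⊤ := fun e => hQ (by rw [← hLmap, e, Subgroup.map_top_of_surjective f hf])
      haveI := hsubG L hLt
      obtain ⟨A, hA, -⟩ := Core.exists_isPiHall_ge_of_isSolvable (G := L) (π := {p}ᶜ) (K := ⊥)
        ((Core.isPiNat_compl_singleton_iff_coprime hp).mpr (by rw [Subgroup.card_bot]; exact Nat.coprime_one_left p))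
      set g := f.comp L.subtype
      have hrange : g.range = Q := by rw [MonoidHom.range_comp, Subgroup.range_subtype, hLmap]
      have hAQ : A.map g = Q := by
        have h1 : (A.map g).relIndex Q ∣ A.index := by
          rw [← hrange, MonoidHom.range_eq_map, ← Subgroup.relIndex_top_right, Subgroup.relIndex_map_map]
          exact Subgroup.relIndex_dvd_of_le_left _ le_sup_left |>.trans
            (dvd_of_eq (by rw [top_sup_eq]))
        have hAp : ((A.map g).relIndex Q).Coprime A.index → (A.map g).relIndex Q = 1 := fun hc =>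
          Nat.Coprime.eq_one_of_dvd hc h1
        have hle : A.map g ≤ Q := by rw [← hrange]; exact Subgroup.map_le_range g A
        refine le_antisymm hle (Subgroup.relIndex_eq_one.mp (hAp ?_))
        refine Nat.Coprime.coprime_dvd_left (Subgroup.relIndex_dvd_card _ _) ?_
        refine Nat.coprime_of_dvd fun q hq hq1 hq2 => ?_
        have hqp : q = p := by
          by_contra hne
          exact (Core.isPiHall_iff.mp hA).2 q hq hq2 hne
        exact hp.ne_one (Nat.eq_one_of_dvd_coprimes hQc (hqp ▸ hq1) dvd_rfl)
      obtain ⟨hc, he⟩ := h (A.map L.subtype) (by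
        rw [Subgroup.card_map_of_injective L.subtype_injective]
        exact (Core.isPiNat_compl_singleton_iff_coprime hp).mp (Core.isPiHall_iff.mp hA).1)
      have hQ2 : Q = (A.map L.subtype).map f := by rw [Subgroup.map_map]; exact hAQ.symm
      rw [hQ2]
      refine ⟨Subgroup.map_isMulCommutative _ f, ?_⟩
      rintro _ ⟨x, hx, rfl⟩
      rw [← map_pow, he x hx, map_one]
    by_cases hpq : (Nat.card (G ⧸ N)).Coprime p
    · refine Core.isSolvable_of_forall_nilpotent fun H hH => ?_
      haveI := (hlift H hH (hpq.coprime_dvd_left (Subgroup.card_subgroup_dvd_card H))).1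
      letI : CommGroup H := { (inferInstance : Group H) with mul_comm := mul_comm' }
      infer_instance
    · refine ih _ hlt rfl hp fun Q hQc => hlift Q (fun e => hpq ?_) hQc
      rwa [e, Subgroup.card_top] at hQc
  simp only [not_exists, not_and, not_not] at hN
  haveI : IsSimpleGroup G := ⟨fun N hNn => (eq_or_ne N ⊥).imp_right (hN N hNn)⟩
  by_cases hcomm : IsMulCommutative G
  · exact Group.isSolvable_of_comm fun a b => hcomm.1.1 a b
  exfalso
  exact Hyp.false (p := p) ⟨⟨inferInstance, hcomm, hsubG⟩, hp5, hp, fun H hH => (h H hH).1, fun H hH => (h H hH).2⟩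

end Cfsg.Agent.Transfer.PPrimeExp
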