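import Cfsg.Agent.Core.Hall
import Cfsg.Agent.Core.MinimalNormal
import Cfsg.Agent.Core.Fitting
import Cfsg.Agent.Transfer.Burnside
import Cfsg.Agent.PLocal.ElemAb
import Cfsg.Agent.Transfer.Complement
import Cfsg.Agent.Coprime.Generation
import Cfsg.Agent.Coprime.Action
import Cfsg.Prelude.Def_CaseTheorems

/-!
Minimal simple groups all of whose `p'`-subgroups are abelian of exponent dividing `p - 1`:
basic facts. Such groups are shown not to exist in `PPrimeExp/Main.lean`.
-/

set_option autoImplicit false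
set_option linter.unusedSectionVars false

namespace Cfsg.Agent.Transfer.PPrimeExp

open Cfsg
open scoped commutatorElement

/-- Two elements of a commutative subgroup commute. -/
theorem commute_of_mem {X : Type*} [Group X] (H : Subgroup X) [IsMulCommutative H] {a b : X}
    (ha : a ∈ H) (hb : b ∈ H) : a * b = b * a :=
  congrArg Subtype.val (mul_comm' (⟨a, ha⟩ : H) ⟨b, hb⟩)

/-- In a solvable group with an abelian subgroup `K` of `p'`-order and `p`-power index, `O_p` times
`K` is normal, and `O_p` contains every `p`-subgroup normalized by `K`. -/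
theorem solvable_hall {X : Type*} [Group X] [Finite X] [Group.IsSolvable X] {p : ℕ} [hp : Fact p.Prime]
    (K : Subgroup X) [IsMulCommutative K] (hK : (Nat.card K).Coprime p) (hi : ∃ j, K.index = p ^ j) :
    (pCore p X ⊔ K).Normal ∧
      ∀ R : Subgroup X, IsPGroup p R → K ≤ Subgroup.normalizer (R : Set X) → R ≤ pCore p X := by
  set f := QuotientGroup.mk' (pCore p X)
  have hf : Function.Surjective f := QuotientGroup.mk'_surjective _
  set L := K.map f with hL
  haveI : IsMulCommutative L := Subgroup.map_isMulCommutative K f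
  have hLc : (Nat.card L).Coprime p := hK.coprime_dvd_left (K.card_map_dvd f)
  set O := pPrimeCore p (X ⧸ pCore p X) with hO
  haveI : O.Normal := Subgroup.sSup_normal _ (fun _ h => h.1)
  have hOL : O ≤ L := by
    obtain ⟨j, hj⟩ := hi
    have h1 : (L ⊔ O).index ∣ p ^ j :=
      (Subgroup.index_dvd_of_le le_sup_left).trans (hj ▸ K.index_map_dvd hf)
    have h2 : (Nat.card (L ⊔ O : Subgroup _)).Coprime p :=
      Nat.Coprime.coprime_dvd_left (Core.card_sup_dvd_mul L O)
        (hLc.mul_left (Core.card_pPrimeCore_coprime p _))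
    have h3 : L.index ∣ p ^ j := hj ▸ K.index_map_dvd hf
    have h4 : L.relIndex (L ⊔ O) = 1 := Nat.eq_one_of_dvd_coprimes (h2.pow_right j)
      (Subgroup.relIndex_dvd_card _ _) ((Subgroup.relIndex_dvd_index_of_le le_sup_left).trans h3)
    exact le_sup_right.trans (Subgroup.relIndex_eq_one.mp h4)
  have hFO : fittingSubgroup (X ⧸ pCore p X) ≤ O := by
    rw [Core.fittingSubgroup_eq_iSup]
    refine (Core.iSup_pCore_le_sup p _).trans ?_
    rw [Core.pCore_quotient_pCore, bot_sup_eq]
  have hC : ∀ x, (∀ l ∈ L, l * x = x * l) → x ∈ O := fun x hx =>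
    hFO (Core.centralizer_fittingSubgroup_le (Subgroup.mem_centralizer_iff.mpr fun o ho =>
      hx o (hOL (hFO ho))))
  have hLO : L = O := le_antisymm (fun x hx => hC x fun l hl => commute_of_mem L hl hx) hOL
  refine ⟨?_, fun R hR hKR => ?_⟩
  · have : pCore p X ⊔ K = L.comap f := by
      rw [hL, Subgroup.comap_map_eq, QuotientGroup.ker_mk', sup_comm]
    rw [this, hLO]
    infer_instance
  · have h1 : ∀ r ∈ R, ∀ l ∈ L, l * f r = f r * l := by
      intro r hr l hl
      obtain ⟨k, hk, rfl⟩ := hl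
      have h2 : f (k * r * k⁻¹ * r⁻¹) ∈ R.map f :=
        Subgroup.mem_map_of_mem f (R.mul_mem ((Subgroup.mem_normalizer_iff.mp (hKR hk) r).mp hr) (R.inv_mem hr))
      have h3 : f (k * r * k⁻¹ * r⁻¹) ∈ L := by
        rw [map_mul, map_mul, map_mul, map_inv, map_inv, mul_assoc, mul_assoc]
        refine L.mul_mem ⟨k, hk, rfl⟩ ?_
        rw [← mul_assoc, hLO]
        exact (inferInstance : O.Normal).conj_mem _ (O.inv_mem (hLO ▸ ⟨k, hk, rfl⟩)) _
      have h4 : f (k * r * k⁻¹ * r⁻¹) = 1 := by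
        obtain ⟨j, hj⟩ := IsPGroup.iff_card.mp (hR.map f)
        exact orderOf_eq_one_iff.mp (Nat.eq_one_of_dvd_coprimes (hLc.pow_right j)
          (Subgroup.orderOf_dvd_natCard L h3) (hj ▸ Subgroup.orderOf_dvd_natCard _ h2))
      rw [map_mul, map_mul, map_mul, map_inv, map_inv, mul_inv_eq_one, mul_inv_eq_iff_eq_mul] at h4
      exact h4
    intro r hr
    have h5 : f r = 1 := by
      obtain ⟨j, hj⟩ := IsPGroup.iff_card.mp (hR.map f)
      exact orderOf_eq_one_iff.mp (Nat.eq_one_of_dvd_coprimes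
        ((Core.card_pPrimeCore_coprime p (X ⧸ pCore p X)).pow_right j)
        (Subgroup.orderOf_dvd_natCard O (hC _ (h1 r hr)))
        (hj ▸ Subgroup.orderOf_dvd_natCard _ (Subgroup.mem_map_of_mem f hr)))
    exact (QuotientGroup.eq_one_iff r).mp h5

/-- An automorphism of coprime order of an abelian `q`-group fixing all elements of order dividing
`q` is trivial. -/
theorem centralizes_of_omega {X : Type*} [Group X] [Finite X] {q : ℕ} [hq : Fact q.Prime] {Q : Subgroup X}
    (hQ : IsPGroup q Q) (hab : IsMulCommutative Q) {g : X} (hg : g ∈ Subgroup.normalizer (Q : Set X))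
    (hgq : (orderOf g).Coprime q) (h : ∀ a ∈ Q, a ^ q = 1 → g * a * g⁻¹ = a) :
    ∀ a ∈ Q, g * a * g⁻¹ = a := by
  intro a
  induction hn : orderOf a using Nat.strong_induction_on generalizing a with
  | _ n ih =>
  intro ha
  subst hn
  by_cases haq : a ^ q = 1
  · exact h a ha haq
  have ha1 : a ≠ 1 := fun e => haq (by rw [e, one_pow])
  have hdvd : q ∣ orderOf a := by
    obtain ⟨k, hk⟩ := (IsPGroup.iff_orderOf.mp hQ) ⟨a, ha⟩
    rw [← Subgroup.orderOf_coe] at hk
    rcases k with _ | k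
    · exact absurd (orderOf_eq_one_iff.mp hk) ha1
    · exact ⟨q ^ k, by rw [hk, pow_succ']⟩
  have h1 := ih (orderOf (a ^ q)) (by
    rw [orderOf_pow' _ hq.out.ne_zero, Nat.gcd_eq_right hdvd]
    exact Nat.div_lt_self (orderOf_pos a) hq.out.one_lt) (a ^ q) rfl (Q.pow_mem ha q)
  set t := g * a * g⁻¹ * a⁻¹ with ht
  have htQ : t ∈ Q := Q.mul_mem ((Subgroup.mem_normalizer_iff.mp hg a).mp ha) (Q.inv_mem ha)
  have hconj : g * a * g⁻¹ = t * a := by rw [ht]; group
  have htq : t ^ q = 1 := by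
    have h2 : (t * a) ^ q = t ^ q * a ^ q :=
      (show Commute t a from commute_of_mem Q htQ ha).mul_pow q
    rw [← hconj, conj_pow, h1, eq_comm, mul_eq_right] at h2
    exact h2
  have h3 : g * t = t * g := mul_inv_eq_iff_eq_mul.mp (h t htQ htq)
  have h4 := PLocal.conj_pow_eq hconj h3 (orderOf g)
  rw [pow_orderOf_eq_one, one_mul, inv_one, mul_one, eq_comm, mul_eq_right] at h4
  have h5 : t = 1 := orderOf_eq_one_iff.mp (Nat.eq_one_of_dvd_coprimes hgq
    (orderOf_dvd_of_pow_eq_one h4) (orderOf_dvd_of_pow_eq_one htq))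
  rw [hconj, h5, one_mul]

/-- The standing hypothesis: a minimal simple group whose `p'`-subgroups are abelian of exponent
dividing `p - 1`. -/
structure Hyp (p : ℕ) (G : Type*) [Group G] [Finite G] : Prop where
  simple : IsMinimalSimple G
  five : 5 ≤ p
  prime : p.Prime
  abelian : ∀ H : Subgroup G, (Nat.card H).Coprime p → IsMulCommutative H
  exp : ∀ H : Subgroup G, (Nat.card H).Coprime p → ∀ x ∈ H, x ^ (p - 1) = 1

/-- A maximal nontrivial `p'`-subgroup. -/
def IsMaxPrime {G : Type*} [Group G] (p : ℕ) (K : Subgroup G) : Prop :=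
  K ≠ ⊥ ∧ (Nat.card K).Coprime p ∧ ∀ L : Subgroup G, (Nat.card L).Coprime p → K ≤ L → L = K

variable {G : Type*} [Group G] [Finite G] {p : ℕ}

namespace Hyp

variable (h : Hyp p G)
include h

theorem normal_eq {N : Subgroup G} (hN : N.Normal) : N = ⊥ ∨ N = ⊤ :=
  h.simple.1.eq_bot_or_eq_top_of_normal N hN

theorem solvable {H : Subgroup G} (hH : H ≠ ⊤) : Group.IsSolvable H := h.simple.2.2 H hH

theorem not_solvable : ¬ Group.IsSolvable G := by
  intro hs
  haveI := h.simple.1
  exact h.simple.2.1 ⟨⟨IsSimpleGroup.comm_iff_isSolvable.mpr hs⟩⟩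

theorem top_not_pGroup {r : ℕ} [Fact r.Prime] : ¬ IsPGroup r G := fun hr =>
  h.not_solvable (by haveI := hr.isNilpotent; infer_instance)

theorem lt_of_dvd {q : ℕ} (hq : q.Prime) (hqp : q ≠ p) (hd : q ∣ Nat.card G) : q ∣ p - 1 := by
  haveI := Fact.mk hq
  obtain ⟨x, hx⟩ := exists_prime_orderOf_dvd_card' q hd
  have hc : (Nat.card (Subgroup.zpowers x)).Coprime p := by
    rw [Nat.card_zpowers, hx]; exact (Nat.coprime_primes hq h.prime).mpr hqp
  exact hx ▸ orderOf_dvd_of_pow_eq_one (h.exp _ hc x (Subgroup.mem_zpowers x))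

theorem sylow_coprime {q : ℕ} [hq : Fact q.Prime] (hqp : q ≠ p) {Q : Subgroup G} (hQ : IsPGroup q Q) :
    (Nat.card Q).Coprime p := by
  obtain ⟨n, hn⟩ := IsPGroup.iff_card.mp hQ
  rw [hn]; exact ((Nat.coprime_primes hq.out h.prime).mpr hqp).pow_left n

/-- Burnside's transfer theorem: a `p`-element acts nontrivially on each abelian Sylow `q`-subgroup. -/
theorem exists_mover {q : ℕ} [hq : Fact q.Prime] (hqp : q ≠ p) (Q : Sylow q G) (hQ : (Q : Subgroup G) ≠ ⊥) :
    ∃ g ∈ Subgroup.normalizer ((Q : Subgroup G) : Set G), (∃ k, orderOf g = p ^ k) ∧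
      g ∉ Subgroup.centralizer ((Q : Subgroup G) : Set G) := by
  haveI := Fact.mk h.prime
  by_contra hcon
  simp only [not_exists, not_and, not_not] at hcon
  have hQp := h.sylow_coprime hqp Q.2
  have hle : Subgroup.normalizer ((Q : Subgroup G) : Set G) ≤
      Subgroup.centralizer ((Q : Subgroup G) : Set G) := by
    intro g hg
    obtain ⟨k, m, hm, hgo⟩ := Nat.exists_eq_pow_mul_and_not_dvd (orderOf_pos g).ne' p h.prime.ne_one
    have hcop : (p ^ k).Coprime m := ((h.prime.coprime_iff_not_dvd.mpr hm).pow_left k)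
    have ha : g ^ m ∈ Subgroup.centralizer ((Q : Subgroup G) : Set G) := by
      refine hcon _ (Subgroup.pow_mem _ hg m) ⟨k, ?_⟩
      have hm0 : m ≠ 0 := by intro e; rw [e] at hm; exact hm (dvd_zero p)
      rw [orderOf_pow' _ hm0, hgo, Nat.gcd_mul_left_left,
        Nat.mul_div_cancel _ (Nat.pos_of_ne_zero hm0)]
    have hb : g ^ (p ^ k) ∈ Subgroup.centralizer ((Q : Subgroup G) : Set G) := by
      have hz : Subgroup.zpowers (g ^ (p ^ k)) ≤ Subgroup.normalizer ((Q : Subgroup G) : Set G) :=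
        Subgroup.zpowers_le.mpr (Subgroup.pow_mem _ hg _)
      have hc : (Nat.card ((Q : Subgroup G) ⊔ Subgroup.zpowers (g ^ (p ^ k)) : Subgroup G)).Coprime p := by
        have e := PLocal.card_sup_mul_card_inf (A := Subgroup.zpowers (g ^ (p ^ k))) (B := (Q : Subgroup G)) hz
        rw [sup_comm] at e
        refine Nat.Coprime.coprime_dvd_left (Dvd.intro _ e) ?_
        refine Nat.Coprime.mul_left ?_ hQp
        rw [Nat.card_zpowers, orderOf_pow' _ (pow_ne_zero _ h.prime.ne_zero), hgo, Nat.gcd_mul_right_left,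
          Nat.mul_div_cancel_left _ (pow_pos h.prime.pos _)]
        exact (h.prime.coprime_iff_not_dvd.mpr hm).symm
      haveI := h.abelian _ hc
      exact Subgroup.mem_centralizer_iff.mpr fun a ha => commute_of_mem _
        (Subgroup.mem_sup_left ha) (Subgroup.mem_sup_right (Subgroup.mem_zpowers _))
    obtain ⟨u, v, huv⟩ := Nat.isCoprime_iff_coprime.mpr hcop
    have : g = (g ^ (p ^ k)) ^ u * (g ^ m) ^ v := by
      rw [← zpow_natCast g, ← zpow_natCast g, ← zpow_mul, ← zpow_mul, ← zpow_add]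
      rw [show ((p ^ k : ℕ) : ℤ) * u + (m : ℤ) * v = 1 from by rw [← huv]; ring, zpow_one]
    rw [this]
    exact Subgroup.mul_mem _ (Subgroup.zpow_mem _ hb u) (Subgroup.zpow_mem _ ha v)
  have hc := Transfer.hasNormalPComplement_of_normalizer_le_centralizer Q hle
  obtain ⟨N, hN, hcard⟩ := (exists_normal_isComplement'_iff Q).mpr hc
  rcases h.normal_eq hN with rfl | rfl
  · exact h.top_not_pGroup (r := q) (((Subgroup.isComplement'_bot_left.mp hcard) ▸ Q.2).of_equiv Subgroup.topEquiv)
  · exact hQ (Subgroup.isComplement'_top_left.mp hcard)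

/-- Every abelian Sylow `q`-subgroup contains a noncyclic elementary abelian subgroup of order `q ^ 3`. -/
theorem three_le_rank {q : ℕ} [hq : Fact q.Prime] (hqp : q ≠ p) (Q : Sylow q G) (hQ : (Q : Subgroup G) ≠ ⊥) :
    ∃ E : Subgroup G, E ≤ (Q : Subgroup G) ∧ (∀ x ∈ E, x ^ q = 1) ∧ q ^ 3 ≤ Nat.card E := by
  haveI := Fact.mk h.prime
  obtain ⟨g, hg, ⟨k, hk⟩, hgc⟩ := h.exists_mover hqp Q hQ
  have hab : IsMulCommutative (Q : Subgroup G) := h.abelian _ (h.sylow_coprime hqp Q.2)
  have hdvd : q ∣ Nat.card G := by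
    obtain ⟨n, hn⟩ := IsPGroup.iff_card.mp Q.2
    rcases n with _ | n
    · exact absurd (Subgroup.eq_bot_of_card_eq _ (by rw [hn, pow_zero])) hQ
    · exact (Dvd.intro _ (hn.trans (pow_succ' q n)).symm).trans (Subgroup.card_subgroup_dvd_card _)
  let E : Subgroup G :=
    { carrier := {x | x ∈ (Q : Subgroup G) ∧ x ^ q = 1}
      one_mem' := ⟨Subgroup.one_mem _, one_pow q⟩
      mul_mem' := fun {a b} ha hb => ⟨Subgroup.mul_mem _ ha.1 hb.1, by
        rw [(show Commute a b from commute_of_mem _ ha.1 hb.1).mul_pow, ha.2, hb.2, one_mul]⟩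
      inv_mem' := fun {a} ha => ⟨Subgroup.inv_mem _ ha.1, by rw [inv_pow, ha.2, inv_one]⟩ }
  have hEQ : E ≤ (Q : Subgroup G) := fun x hx => hx.1
  refine ⟨E, hEQ, fun x hx => hx.2, ?_⟩
  obtain ⟨n, hn⟩ := IsPGroup.iff_card.mp (Q.2.to_le hEQ)
  rw [hn]
  refine Nat.pow_le_pow_right hq.out.pos ?_
  by_contra hn3
  have hq1 : q ∣ p - 1 := h.lt_of_dvd hq.out hqp hdvd
  have hqlt : q + 1 < p := by
    have := Nat.le_of_dvd (by have := h.five; omega) hq1
    rcases Nat.lt_or_ge (q + 1) p with h' | h'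
    · exact h'
    · have hq' : q = p - 1 := by omega
      have : q = 2 := by
        rcases hq.out.eq_two_or_odd with h2 | h2
        · exact h2
        · rcases h.prime.eq_two_or_odd with h3 | h3 <;> have := h.five <;> omega
      have := h.five
      omega
  have hgE : g ∈ Subgroup.normalizer (E : Set G) := Coprime.mem_normalizer_of_conj_mem fun y hy =>
    ⟨(Subgroup.mem_normalizer_iff.mp hg y).mp hy.1, by rw [conj_pow, hy.2, mul_one, mul_inv_cancel]⟩
  have hcen := Transfer.mem_centralizer_of_orderOf_eq_prime_pow (p := q) E (Q.2.to_le hEQ) hn h.prime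
    (Ne.symm hqp) (fun i h1 h2 hd => ?_) hgE hk
  · refine hgc (Subgroup.mem_centralizer_iff.mpr fun a ha => ?_)
    have := centralizes_of_omega Q.2 hab hg
      (by rw [hk]; exact ((Nat.coprime_primes h.prime hq.out).mpr (Ne.symm hqp)).pow_left k)
      (fun a ha haq => mul_inv_eq_iff_eq_mul.mpr (Subgroup.mem_centralizer_iff.mp hcen a ⟨ha, haq⟩).symm) a ha
    exact (mul_inv_eq_iff_eq_mul.mp this).symm
  · have hi : i = 1 ∨ i = 2 := by omega
    have hqpos := hq.out.two_le
    rcases hi with rfl | rfl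
    · rw [pow_one] at hd; exact absurd (Nat.le_of_dvd (by omega) hd) (by omega)
    · rw [show q ^ 2 - 1 = (q + 1) * (q - 1) by rw [← Nat.sq_sub_sq q 1]] at hd
      rcases h.prime.dvd_mul.mp hd with hd | hd <;> exact absurd (Nat.le_of_dvd (by omega) hd) (by omega)

end Hyp

end Cfsg.Agent.Transfer.PPrimeExp
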