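import Cfsg.Agent.Transfer.PPrimeExp.Basic
import Cfsg.Agent.Transfer.Fusion

/-!
The unique maximal `p`-subgroup normalized by a maximal `p'`-subgroup `K`, and the unique maximal
local subgroup containing `K`.
-/

set_option autoImplicit false
set_option linter.unusedSectionVars false

namespace Cfsg.Agent.Transfer.PPrimeExp

open Cfsg

variable {G : Type*} [Group G] [Finite G] {p : ℕ}

/-- `O_p(H)`, as a subgroup of `G`. -/
def opOf (p : ℕ) (H : Subgroup G) : Subgroup G := (pCore p H).map H.subtype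

theorem opOf_le (H : Subgroup G) : opOf p H ≤ H := Subgroup.map_subtype_le _

theorem isPGroup_opOf (H : Subgroup G) : IsPGroup p (opOf p H) := (Core.isPGroup_pCore p H).map _

theorem le_normalizer_opOf (H : Subgroup G) : H ≤ Subgroup.normalizer (opOf p H : Set G) := by
  haveI : (pCore p H).Normal := Subgroup.sSup_normal _ (fun _ h => h.1)
  intro x hx
  refine Coprime.mem_normalizer_of_conj_mem ?_
  rintro _ ⟨y, hy, rfl⟩
  exact ⟨⟨x, hx⟩ * y * ⟨x, hx⟩⁻¹, (inferInstance : (pCore p H).Normal).conj_mem y hy _, rfl⟩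

theorem exists_maximal_inv (p : ℕ) (K : Subgroup G) {R : Subgroup G} (hR : IsPGroup p R)
    (hKR : K ≤ Subgroup.normalizer (R : Set G)) :
    ∃ W : Subgroup G, R ≤ W ∧ Maximal (fun S : Subgroup G => IsPGroup p S ∧ K ≤ Subgroup.normalizer (S : Set G)) W :=
  Finite.exists_le_maximal (p := fun S : Subgroup G => IsPGroup p S ∧ K ≤ Subgroup.normalizer (S : Set G))
    ⟨hR, hKR⟩

namespace Hyp

variable (h : Hyp p G)
include h

theorem ne_top_of_pGroup {R : Subgroup G} (hR : IsPGroup p R) : R ≠ ⊤ := fun e => by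
  haveI := Fact.mk h.prime
  exact h.top_not_pGroup (r := p) ((e ▸ hR).of_equiv Subgroup.topEquiv)

theorem normalizer_ne_top {R : Subgroup G} (h0 : R ≠ ⊥) (h1 : R ≠ ⊤) :
    Subgroup.normalizer (R : Set G) ≠ ⊤ := fun e =>
  (h.normal_eq (Subgroup.normalizer_eq_top_iff.mp e)).elim h0 h1

theorem centralizer_singleton_ne_top {a : G} (ha : a ≠ 1) : Subgroup.centralizer ({a} : Set G) ≠ ⊤ := by
  intro e
  have hz : a ∈ Subgroup.center G := Subgroup.mem_center_iff.mpr fun g =>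
    (Subgroup.mem_centralizer_iff.mp (e ▸ Subgroup.mem_top g : g ∈ Subgroup.centralizer ({a} : Set G)) a rfl).symm
  rcases h.normal_eq (inferInstance : (Subgroup.center G).Normal) with h' | h'
  · exact ha (Subgroup.mem_bot.mp (h' ▸ hz))
  · exact h.simple.2.1 ⟨⟨fun x y => (Subgroup.mem_center_iff.mp (h' ▸ Subgroup.mem_top x : x ∈ Subgroup.center G) y).symm⟩⟩

/-- A subgroup of `p'`-order and `p`-power index in `H`. -/
theorem exists_hall {H L : Subgroup G} (hH : H ≠ ⊤) (hL : (Nat.card L).Coprime p) (hLH : L ≤ H) :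
    ∃ A : Subgroup G, L ≤ A ∧ A ≤ H ∧ (Nat.card A).Coprime p ∧ ∃ j, A.relIndex H = p ^ j := by
  haveI := Fact.mk h.prime
  haveI := h.solvable hH
  obtain ⟨A, hA, hLA⟩ := Core.exists_isPiHall_ge_of_isSolvable (G := H) (π := {p}ᶜ) (K := L.subgroupOf H)
    ((Core.isPiNat_compl_singleton_iff_coprime h.prime).mpr
      (by rwa [Nat.card_congr (Subgroup.subgroupOfEquivOfLe hLH).toEquiv]))
  refine ⟨A.map H.subtype, fun x hx => ⟨⟨x, hLH hx⟩, hLA hx, rfl⟩, Subgroup.map_subtype_le _, ?_, ?_⟩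
  · rw [Subgroup.card_map_of_injective H.subtype_injective]
    exact (Core.isPiNat_compl_singleton_iff_coprime h.prime).mp (Core.isPiHall_iff.mp hA).1
  · refine ⟨(A.index).primeFactorsList.length, ?_⟩
    rw [Subgroup.relIndex, Subgroup.subgroupOf, Subgroup.comap_map_eq_self_of_injective H.subtype_injective]
    refine Nat.eq_prime_pow_of_unique_prime_dvd Subgroup.index_ne_zero_of_finite fun {q} hq hd => ?_
    by_contra hne
    exact (Core.isPiHall_iff.mp hA).2 q hq hd hne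

theorem relIndex_eq {K H : Subgroup G} (hK : IsMaxPrime p K) (hH : H ≠ ⊤) (hKH : K ≤ H) :
    ∃ j, K.relIndex H = p ^ j := by
  obtain ⟨A, hKA, -, hA, hj⟩ := h.exists_hall hH hK.2.1 hKH
  rwa [hK.2.2 A hA hKA] at hj

theorem le_opOf {A H R : Subgroup G} (hH : H ≠ ⊤) (hA : (Nat.card A).Coprime p) (hAH : A ≤ H)
    (hj : ∃ j, A.relIndex H = p ^ j) (hR : IsPGroup p R) (hRH : R ≤ H)
    (hAR : A ≤ Subgroup.normalizer (R : Set G)) : R ≤ opOf p H := by
  haveI := Fact.mk h.prime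
  haveI := h.solvable hH
  haveI := h.abelian A hA
  intro r hr
  refine ⟨⟨r, hRH hr⟩, (solvable_hall (A.subgroupOf H)
    (by rwa [Nat.card_congr (Subgroup.subgroupOfEquivOfLe hAH).toEquiv]) hj).2 (R.subgroupOf H)
      hR.comap_subtype ?_ hr, rfl⟩
  intro a ha
  rw [Subgroup.mem_normalizer_iff]
  intro x
  simp only [Subgroup.mem_subgroupOf, Subgroup.coe_mul, Subgroup.coe_inv]
  exact Subgroup.mem_normalizer_iff.mp (hAR ha) x

theorem exists_mul {A H : Subgroup G} (hH : H ≠ ⊤) (hA : (Nat.card A).Coprime p) (hAH : A ≤ H)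
    (hj : ∃ j, A.relIndex H = p ^ j) {x : G} (hx : x ∈ H) :
    ∃ r ∈ opOf p H, ∃ n ∈ H, n ∈ Subgroup.normalizer (A : Set G) ∧ x = r * n := by
  haveI := Fact.mk h.prime
  haveI := h.solvable hH
  haveI := h.abelian A hA
  set K := A.subgroupOf H
  have hKc : (Nat.card K).Coprime p := by rwa [Nat.card_congr (Subgroup.subgroupOfEquivOfLe hAH).toEquiv]
  haveI hn : (pCore p H ⊔ K).Normal := (solvable_hall K hKc hj).1
  set L := pCore p H ⊔ K
  have hall : IsPiHall {p}ᶜ (K.subgroupOf L) := by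
    rw [Core.isPiHall_iff]
    refine ⟨(Core.isPiNat_compl_singleton_iff_coprime h.prime).mpr
      (by rwa [Nat.card_congr (Subgroup.subgroupOfEquivOfLe le_sup_right).toEquiv]), ?_⟩
    obtain ⟨j, hj⟩ := hj
    intro q hq hd
    have h1 : q ∣ p ^ j := hd.trans (hj ▸ Subgroup.relIndex_dvd_index_of_le le_sup_right)
    have := (Nat.prime_dvd_prime_iff_eq hq h.prime).mp (hq.dvd_of_dvd_pow h1)
    simp [this]
  have hfr := Core.sup_normalizer_eq_top_of_isPiHall Core.isPiSeparable_of_isSolvable Core.hallSolvable_of_isSolvable hall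
  rw [Subgroup.map_subgroupOf_eq_of_le le_sup_right, sup_assoc, sup_eq_right.mpr Subgroup.le_normalizer] at hfr
  haveI : (pCore p H).Normal := Subgroup.sSup_normal _ (fun _ h => h.1)
  obtain ⟨r, hr, n, hn', e⟩ := Subgroup.mem_sup_of_normal_left.mp (hfr ▸ Subgroup.mem_top (⟨x, hx⟩ : H))
  refine ⟨(r : G), ⟨r, hr, rfl⟩, (n : G), n.2, Coprime.mem_normalizer_of_conj_mem fun y hy => ?_,
    (congrArg Subtype.val e).symm⟩
  exact (Subgroup.mem_normalizer_iff.mp hn' ⟨y, hAH hy⟩).mp hy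

/-- A maximal `p'`-subgroup contains elementary abelian subgroups of rank at least three. -/
theorem exists_rank_three {K : Subgroup G} (hK : IsMaxPrime p K) :
    ∃ q : ℕ, q.Prime ∧ q ≠ p ∧ ∃ E : Subgroup G, E ≤ K ∧ (∀ x ∈ E, x ^ q = 1) ∧ q ^ 3 ≤ Nat.card E := by
  haveI := Fact.mk h.prime
  obtain ⟨q, hq, hqK⟩ := Nat.exists_prime_and_dvd fun e => hK.1 (Subgroup.eq_bot_of_card_eq _ e)
  haveI := Fact.mk hq
  have hqp : q ≠ p := fun e => h.prime.ne_one
    (Nat.eq_one_of_dvd_coprimes hK.2.1 (e ▸ hqK) dvd_rfl)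
  refine ⟨q, hq, hqp, ?_⟩
  obtain ⟨a, ha⟩ := exists_prime_orderOf_dvd_card' (G := K) q hqK
  have ha1 : (a : G) ≠ 1 := fun e => hq.ne_one (by rw [← ha, ← Subgroup.orderOf_coe, e, orderOf_one])
  obtain ⟨Q, hQ⟩ := (IsPGroup.of_card (p := q) (n := 1) (G := Subgroup.zpowers (a : G))
    (by rw [Nat.card_zpowers, Subgroup.orderOf_coe, ha, pow_one])).exists_le_sylow
  set C := Subgroup.centralizer ({(a : G)} : Set G)
  haveI := h.abelian K hK.2.1
  haveI := h.abelian _ (h.sylow_coprime hqp Q.2)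
  have hKC : K ≤ C := fun k hk => Subgroup.mem_centralizer_iff.mpr fun b hb => by
    rw [Set.mem_singleton_iff] at hb; subst hb; exact commute_of_mem K a.2 hk
  have hQC : (Q : Subgroup G) ≤ C := fun k hk => Subgroup.mem_centralizer_iff.mpr fun b hb => by
    rw [Set.mem_singleton_iff] at hb; subst hb
    exact commute_of_mem (Q : Subgroup G) (hQ (Subgroup.mem_zpowers _)) hk
  obtain ⟨j, hj⟩ := h.relIndex_eq hK (h.centralizer_singleton_ne_top ha1) hKC
  have hdvd : Nat.card (Q : Subgroup G) ∣ Nat.card K := by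
    refine ((h.sylow_coprime hqp Q.2).pow_right j).dvd_of_dvd_mul_right ?_
    rw [← hj, ← Nat.card_congr (Subgroup.subgroupOfEquivOfLe hKC).toEquiv]
    exact (Subgroup.card_dvd_of_le hQC).trans (dvd_of_eq (Subgroup.card_mul_index _).symm)
  obtain ⟨n, hn⟩ := IsPGroup.iff_card.mp Q.2
  obtain ⟨S, hS⟩ := Sylow.exists_subgroup_card_pow_prime (G := K) q (n := n) (hn ▸ hdvd)
  let Q' : Sylow q G := Sylow.ofCard (S.map K.subtype) (by
    rw [Subgroup.card_map_of_injective K.subtype_injective, hS, ← hn, Q.card_eq_multiplicity])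
  have hQ'c : Nat.card (Q' : Subgroup G) = q ^ n := by
    show Nat.card (S.map K.subtype) = q ^ n
    rw [Subgroup.card_map_of_injective K.subtype_injective, hS]
  have hne : (Q' : Subgroup G) ≠ ⊥ := fun e => by
    rw [e, Subgroup.card_bot, ← hn] at hQ'c
    exact ha1 (Subgroup.mem_bot.mp (Subgroup.eq_bot_of_card_eq _ hQ'c.symm ▸ hQ (Subgroup.mem_zpowers _)))
  obtain ⟨E, hE, hx, hc⟩ := h.three_le_rank hqp Q' hne
  exact ⟨E, hE.trans (Subgroup.map_subtype_le S), hx, hc⟩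

/-- Two `K`-invariant `p`-subgroups have nontrivial fixed points of one element of `K`. -/
theorem exists_common_fixed {K : Subgroup G} (hK : IsMaxPrime p K) {W₁ W₂ : Subgroup G}
    (h1 : IsPGroup p W₁) (h2 : IsPGroup p W₂) (hn1 : K ≤ Subgroup.normalizer (W₁ : Set G))
    (hn2 : K ≤ Subgroup.normalizer (W₂ : Set G)) (hne1 : W₁ ≠ ⊥) (hne2 : W₂ ≠ ⊥) :
    ∃ c ∈ K, c ≠ 1 ∧ W₁ ⊓ Subgroup.centralizer {c} ≠ ⊥ ∧ W₂ ⊓ Subgroup.centralizer {c} ≠ ⊥ := by
  haveI := Fact.mk h.prime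
  haveI := h.abelian K hK.2.1
  obtain ⟨q, hq, hqp, E, hEK, hEq, hEc⟩ := h.exists_rank_three hK
  haveI := Fact.mk hq
  have hcom : ∀ B : Subgroup G, B ≤ K → IsMulCommutative B := fun B hB =>
    h.abelian B (hK.2.1.coprime_dvd_left (Subgroup.card_dvd_of_le hB))
  have hcyc : ∀ B : Subgroup G, B ≤ E → q < Nat.card B → ¬ IsCyclic B := by
    intro B hB hlt hc
    obtain ⟨⟨g, hg⟩, hgen⟩ := hc.exists_generator
    have h3 : orderOf (⟨g, hg⟩ : B) = Nat.card B := orderOf_eq_card_of_forall_mem_zpowers hgen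
    rw [← Subgroup.orderOf_coe] at h3
    have := Nat.le_of_dvd hq.pos (orderOf_dvd_of_pow_eq_one (hEq g (hB hg)))
    simp only at h3
    omega
  have hfix : ∀ (W B : Subgroup G), IsPGroup p W → B ≤ K → ¬ IsCyclic B →
      B ≤ Subgroup.normalizer (W : Set G) → W ≠ ⊥ → ∃ c ∈ B, c ≠ 1 ∧ W ⊓ Subgroup.centralizer {c} ≠ ⊥ := by
    intro W B hW hBK hB hBW hW1
    by_contra hcon
    simp only [not_exists, not_and, not_not] at hcon
    haveI := hcom B hBK
    have hcop : (Nat.card B).Coprime (Nat.card W) := by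
      obtain ⟨i, hi⟩ := IsPGroup.iff_card.mp hW
      rw [hi]; exact (hK.2.1.coprime_dvd_left (Subgroup.card_dvd_of_le hBK)).pow_right i
    refine hW1 (le_bot_iff.mp ((Coprime.eq_centralizerJoin hB hBW hcop).symm.trans_le ?_))
    exact iSup_le fun e => (hcon e.1 e.2.1 e.2.2).le
  have hq2 : q < q ^ 2 := by nlinarith [hq.two_le]
  have hq3 : q ^ 2 < q ^ 3 := by nlinarith [hq.two_le]
  obtain ⟨a, haE, ha1, hW1⟩ := hfix W₁ E h1 hEK (hcyc E le_rfl (by omega)) (hEK.trans hn1) hne1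
  have hz : ∀ x ∈ E, x ≠ 1 → Nat.card (Subgroup.zpowers x) = q := fun x hx hx1 => by
    rw [Nat.card_zpowers]; exact orderOf_eq_prime (hEq x hx) hx1
  haveI := hcom E hEK
  have hnorm : ∀ X Y : Subgroup G, X ≤ E → Y ≤ E → X ≤ Subgroup.normalizer (Y : Set G) := fun X Y hX hY x hx =>
    Coprime.mem_normalizer_of_conj_mem fun y hy => by
      rw [commute_of_mem E (hX hx) (hY hy), mul_inv_cancel_right]; exact hy
  have hsup : ∀ {x y : G}, x ∈ E → y ∈ E → x ≠ 1 → y ∉ Subgroup.zpowers x →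
      Nat.card (Subgroup.zpowers y ⊔ Subgroup.zpowers x : Subgroup G) = q ^ 2 := by
    intro x y hx hy hx1 hyx
    have hy1 : y ≠ 1 := fun e => hyx (e ▸ Subgroup.one_mem _)
    have e := PLocal.card_sup_mul_card_inf (hnorm (Subgroup.zpowers y) (Subgroup.zpowers x)
      (Subgroup.zpowers_le.mpr hy) (Subgroup.zpowers_le.mpr hx))
    have hi : Subgroup.zpowers y ⊓ Subgroup.zpowers x = ⊥ := by
      rcases (Nat.dvd_prime hq).mp ((hz y hy hy1) ▸ Subgroup.card_dvd_of_le
        (inf_le_left : Subgroup.zpowers y ⊓ Subgroup.zpowers x ≤ _)) with h' | h'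
      · exact Subgroup.eq_bot_of_card_eq _ h'
      · exact absurd ((Subgroup.eq_of_le_of_card_ge inf_le_left (by rw [h', hz y hy hy1])).ge
          (Subgroup.mem_zpowers y)).2 hyx
    rw [hi, Subgroup.card_bot, mul_one, hz y hy hy1, hz x hx hx1] at e
    rw [e, sq]
  obtain ⟨b, hbE, hba⟩ : ∃ b ∈ E, b ∉ Subgroup.zpowers a := by
    by_contra hcon; push_neg at hcon
    have := Subgroup.card_le_of_le (show E ≤ Subgroup.zpowers a from hcon)
    rw [hz a haE ha1] at this; omega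
  have hb1 : b ≠ 1 := fun e => hba (e ▸ Subgroup.one_mem _)
  have hB0 := hsup haE hbE ha1 hba
  obtain ⟨c₀, hcE, hc0⟩ : ∃ c ∈ E, c ∉ Subgroup.zpowers b ⊔ Subgroup.zpowers a := by
    by_contra hcon; push_neg at hcon
    have := Subgroup.card_le_of_le (show E ≤ Subgroup.zpowers b ⊔ Subgroup.zpowers a from hcon)
    rw [hB0] at this; omega
  have hcb : c₀ ∉ Subgroup.zpowers b := fun e => hc0 (Subgroup.mem_sup_left e)
  set E' := Subgroup.zpowers c₀ ⊔ Subgroup.zpowers b with hE'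
  have hE'E : E' ≤ E := sup_le (Subgroup.zpowers_le.mpr hcE) (Subgroup.zpowers_le.mpr hbE)
  have haE' : a ∉ E' := fun e => by
    have h4 : Subgroup.zpowers b ⊔ Subgroup.zpowers a ≤ E' := sup_le le_sup_right (Subgroup.zpowers_le.mpr e)
    have := Subgroup.eq_of_le_of_card_ge h4 (by rw [hsup hbE hcE hb1 hcb, hB0])
    exact hc0 (this ▸ Subgroup.mem_sup_left (Subgroup.mem_zpowers c₀))
  have hE'c : ¬ IsCyclic E' := hcyc E' hE'E (by rw [hsup hbE hcE hb1 hcb]; exact hq2)
  have hE'W : E' ≤ Subgroup.normalizer ((W₁ ⊓ Subgroup.centralizer {a} : Subgroup G) : Set G) :=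
    (le_inf ((hE'E.trans hEK).trans hn1) (fun x hx => Subgroup.le_normalizer
      (Subgroup.mem_centralizer_iff.mpr fun y hy => by
        rw [Set.mem_singleton_iff] at hy; subst hy; exact commute_of_mem E haE (hE'E hx)))).trans
      Subgroup.inf_normalizer_le_normalizer_inf
  obtain ⟨d, hdE', hd1, hd⟩ := hfix _ E' (h1.to_le inf_le_left) (hE'E.trans hEK) hE'c hE'W hW1
  have hda : d ∉ Subgroup.zpowers a := fun e => by
    refine haE' ((Subgroup.zpowers_le.mpr hdE') ?_)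
    rw [Subgroup.eq_of_le_of_card_ge (Subgroup.zpowers_le.mpr e)
      (by rw [hz a haE ha1, hz d (hE'E hdE') hd1])]
    exact Subgroup.mem_zpowers a
  set B := Subgroup.zpowers d ⊔ Subgroup.zpowers a
  have hBE : B ≤ E := sup_le (Subgroup.zpowers_le.mpr (hE'E hdE')) (Subgroup.zpowers_le.mpr haE)
  obtain ⟨c, hcB, hc1, hc2⟩ := hfix W₂ B h2 (hBE.trans hEK)
    (hcyc B hBE (by rw [hsup haE (hE'E hdE') ha1 hda]; exact hq2)) ((hBE.trans hEK).trans hn2) hne2
  refine ⟨c, hEK (hBE hcB), hc1, fun e => hd (le_bot_iff.mp ?_), hc2⟩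
  refine le_trans ?_ e.le
  rintro u ⟨⟨huW, hua⟩, hud⟩
  refine ⟨huW, Subgroup.mem_centralizer_iff.mpr fun y hy => ?_⟩
  rw [Set.mem_singleton_iff] at hy; subst hy
  have hB' : B ≤ Subgroup.centralizer ({u} : Set G) := by
    refine sup_le ?_ ?_ <;> rw [Subgroup.zpowers_le, Subgroup.mem_centralizer_iff] <;> intro w hw <;>
      rw [Set.mem_singleton_iff] at hw <;> subst hw
    · exact (Subgroup.mem_centralizer_iff.mp hud d rfl).symm
    · exact (Subgroup.mem_centralizer_iff.mp hua a rfl).symm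
  exact (Subgroup.mem_centralizer_iff.mp (hB' hcB) u rfl).symm

/-- There is only one maximal `p`-subgroup normalized by `K`. -/
theorem maximal_inv_unique {K : Subgroup G} (hK : IsMaxPrime p K) {W₁ W₂ : Subgroup G}
    (h1 : Maximal (fun S : Subgroup G => IsPGroup p S ∧ K ≤ Subgroup.normalizer (S : Set G)) W₁)
    (h2 : Maximal (fun S : Subgroup G => IsPGroup p S ∧ K ≤ Subgroup.normalizer (S : Set G)) W₂) :
    W₁ = W₂ := by
  haveI := Fact.mk h.prime
  haveI := h.abelian K hK.2.1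
  induction hd : Nat.card G - Nat.card (W₁ ⊓ W₂ : Subgroup G) using Nat.strong_induction_on
    generalizing W₁ W₂ with
  | _ n ih =>
  subst hd
  by_contra hne
  by_cases hD : W₁ ⊓ W₂ = ⊥
  · have hW1 : W₁ ≠ ⊥ := fun e => hne (le_antisymm (e ▸ bot_le) (h1.2 h2.1 (e ▸ bot_le)))
    have hW2 : W₂ ≠ ⊥ := fun e => hne (le_antisymm (h2.2 h1.1 (e ▸ bot_le)) (e ▸ bot_le))
    obtain ⟨c, hcK, hc1, hc, hc'⟩ := h.exists_common_fixed hK h1.1.1 h2.1.1 h1.1.2 h2.1.2 hW1 hW2
    set C := Subgroup.centralizer ({c} : Set G)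
    have hCt := h.centralizer_singleton_ne_top hc1
    have hKC : K ≤ C := fun k hk => Subgroup.mem_centralizer_iff.mpr fun y hy => by
      rw [Set.mem_singleton_iff] at hy; subst hy; exact commute_of_mem K hcK hk
    obtain ⟨W₃, hW₃, h3⟩ := exists_maximal_inv p K (isPGroup_opOf (p := p) C) (hKC.trans (le_normalizer_opOf C))
    have key : ∀ W, Maximal (fun S : Subgroup G => IsPGroup p S ∧ K ≤ Subgroup.normalizer (S : Set G)) W →
        W ⊓ C ≠ ⊥ → W = W₃ := by
      intro W hW hWC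
      have hle : W ⊓ C ≤ W ⊓ W₃ := le_inf inf_le_left ((h.le_opOf hCt hK.2.1 hKC (h.relIndex_eq hK hCt hKC)
        (hW.1.1.to_le inf_le_left) inf_le_right
        ((le_inf hW.1.2 (hKC.trans Subgroup.le_normalizer)).trans Subgroup.inf_normalizer_le_normalizer_inf)).trans hW₃)
      refine ih _ ?_ hW h3 rfl
      have hb : Nat.card (W₁ ⊓ W₂ : Subgroup G) = 1 := by rw [hD]; exact Subgroup.card_bot
      have hlt : 1 < Nat.card (W ⊓ W₃ : Subgroup G) :=
        (Subgroup.one_lt_card_iff_ne_bot _).mpr fun e => hWC (le_bot_iff.mp (e ▸ hle))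
      have := Subgroup.card_le_card_group (W ⊓ W₃)
      omega
    exact hne ((key _ h1 hc).trans (key _ h2 hc').symm)
  · set D := W₁ ⊓ W₂
    set T := Subgroup.normalizer (D : Set G)
    have hT : T ≠ ⊤ := h.normalizer_ne_top hD (h.ne_top_of_pGroup (h1.1.1.to_le inf_le_left))
    have hKT : K ≤ T := (le_inf h1.1.2 h2.1.2).trans Subgroup.inf_normalizer_le_normalizer_inf
    obtain ⟨W₃, hW₃, h3⟩ := exists_maximal_inv p K (isPGroup_opOf (p := p) T) (hKT.trans (le_normalizer_opOf T))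
    have key : ∀ W, Maximal (fun S : Subgroup G => IsPGroup p S ∧ K ≤ Subgroup.normalizer (S : Set G)) W →
        D < W → W = W₃ := by
      intro W hW hDW
      have hle : W ⊓ T ≤ W ⊓ W₃ := le_inf inf_le_left ((h.le_opOf hT hK.2.1 hKT (h.relIndex_eq hK hT hKT)
        (hW.1.1.to_le inf_le_left) inf_le_right
        ((le_inf hW.1.2 (hKT.trans Subgroup.le_normalizer)).trans Subgroup.inf_normalizer_le_normalizer_inf)).trans hW₃)
      refine ih _ ?_ hW h3 rfl
      have hlt : D < W ⊓ W₃ := (Transfer.lt_inf_normalizer hW.1.1 hDW).trans_le hle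
      have hcard : Nat.card D < Nat.card (W ⊓ W₃ : Subgroup G) := by
        by_contra hc
        exact hlt.ne (Subgroup.eq_of_le_of_card_ge hlt.le (not_lt.mp hc))
      have := Subgroup.card_le_card_group (W ⊓ W₃)
      omega
    have l1 : D < W₁ := inf_le_left.lt_of_ne fun e => hne (le_antisymm (e ▸ inf_le_right) (h1.2 h2.1 (e ▸ inf_le_right)))
    have l2 : D < W₂ := inf_le_right.lt_of_ne fun e => hne (le_antisymm (h2.2 h1.1 (e ▸ inf_le_left)) (e ▸ inf_le_left))
    exact hne ((key _ h1 l1).trans (key _ h2 l2).symm)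

end Hyp

end Cfsg.Agent.Transfer.PPrimeExp
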