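import Cfsg.Agent.Transfer.PPrimeExp.Local
import Mathlib.Data.Nat.ChineseRemainder

/-!
The Sylow `p`-normalizer, and the proportion of elements of `p'`-order.
-/

set_option autoImplicit false
set_option linter.unusedSectionVars false

namespace Cfsg.Agent.Transfer.PPrimeExp

open Cfsg
open scoped commutatorElement Pointwise

variable {G : Type*} [Group G] [Finite G] {p : ℕ}

/-- The number of elements of `p'`-order in `H`. -/
noncomputable def copIn (p : ℕ) (H : Subgroup G) : ℕ :=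
  Nat.card {y : G // y ∈ H ∧ (orderOf y).Coprime p}

open scoped Classical in
/-- Decomposition of a subgroup according to `p`-parts. -/
theorem card_eq_sum_copIn [Fintype G] [hp : Fact p.Prime] (H : Subgroup G) :
    Nat.card H = ∑ x ∈ (Finset.univ : Finset G).filter (fun x => x ∈ H ∧ ∃ k, orderOf x = p ^ k),
      copIn p (H ⊓ Subgroup.centralizer {x}) := by
  obtain ⟨a, m, hm, hG⟩ := Nat.exists_eq_pow_mul_and_not_dvd (Nat.card_pos (α := G)).ne' p hp.out.ne_one
  have hcop : (p ^ a).Coprime m := (hp.out.coprime_iff_not_dvd.mpr hm).pow_left a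
  obtain ⟨e, he1, he0⟩ := Nat.chineseRemainder hcop 1 0
  have hx : ∀ x : G, (∃ k, orderOf x = p ^ k) → x ^ e = x := by
    rintro x ⟨k, hk⟩
    have h1 : orderOf x ∣ p ^ a := by
      refine (Nat.Coprime.dvd_of_dvd_mul_right (n := m) ?_ (hG ▸ orderOf_dvd_natCard x))
      rw [hk]; exact (hp.out.coprime_iff_not_dvd.mpr hm).pow_left k
    have h2 : e % orderOf x = 1 % orderOf x := Nat.ModEq.of_dvd h1 he1
    rw [← pow_mod_orderOf, h2, pow_mod_orderOf, pow_one]
  have hy : ∀ y : G, (orderOf y).Coprime p → y ^ e = 1 := by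
    intro y hy
    have h1 : orderOf y ∣ m := (Nat.Coprime.dvd_of_dvd_mul_left (hy.pow_right a) (hG ▸ orderOf_dvd_natCard y))
    exact orderOf_dvd_iff_pow_eq_one.mp (Nat.modEq_zero_iff_dvd.mp (Nat.ModEq.of_dvd h1 he0))
  set S := (Finset.univ : Finset G).filter (fun x => x ∈ H ∧ ∃ k, orderOf x = p ^ k) with hS
  let F : (Σ x : S, {y : G // y ∈ H ⊓ Subgroup.centralizer {(x : G)} ∧ (orderOf y).Coprime p}) → H :=
    fun s => ⟨(s.1 : G) * (s.2 : G), H.mul_mem (Finset.mem_filter.mp s.1.2).2.1 s.2.2.1.1⟩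
  have hF : Function.Bijective F := by
    constructor
    · rintro ⟨⟨x, hxS⟩, ⟨y, hyH, hyp⟩⟩ ⟨⟨x', hxS'⟩, ⟨y', hyH', hyp'⟩⟩ he
      have he' : x * y = x' * y' := congrArg Subtype.val he
      have key : ∀ {u v : G}, (∃ k, orderOf u = p ^ k) → v ∈ H ⊓ Subgroup.centralizer {u} →
          (orderOf v).Coprime p → (u * v) ^ e = u := by
        intro u v hu hv hvp
        rw [(show Commute u v from Subgroup.mem_centralizer_iff.mp hv.2 u rfl).mul_pow, hx u hu, hy v hvp, mul_one]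
      have hxx : x = x' := by
        rw [← key (Finset.mem_filter.mp hxS).2.2 hyH hyp, he', key (Finset.mem_filter.mp hxS').2.2 hyH' hyp']
      subst hxx
      have hyy : y = y' := mul_left_cancel he'
      subst hyy
      rfl
    · rintro ⟨g, hg⟩
      obtain ⟨b, n, hn, hgo⟩ := Nat.exists_eq_pow_mul_and_not_dvd (orderOf_pos g).ne' p hp.out.ne_one
      have hn0 : n ≠ 0 := by intro h0; rw [h0] at hn; exact hn (dvd_zero p)
      have hbn : (p ^ b).Coprime n := (hp.out.coprime_iff_not_dvd.mpr hn).pow_left b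
      obtain ⟨u, hu1, hu0⟩ := Nat.chineseRemainder hbn 1 0
      obtain ⟨v, hv0, hv1⟩ := Nat.chineseRemainder hbn 0 1
      have hmul : g ^ u * g ^ v = g := by
        rw [← pow_add]
        have h3 : u + v ≡ 1 [MOD p ^ b * n] := by
          rw [← Nat.modEq_and_modEq_iff_modEq_mul hbn]
          exact ⟨by simpa using hu1.add hv0, by simpa using hu0.add hv1⟩
        rw [← hgo] at h3
        rw [← pow_mod_orderOf, h3, pow_mod_orderOf, pow_one]
      have hou : ∃ k, orderOf (g ^ u) = p ^ k := by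
        have h4 : (g ^ u) ^ p ^ b = 1 := by
          rw [← pow_mul, ← orderOf_dvd_iff_pow_eq_one, hgo, mul_comm u]
          exact Nat.mul_dvd_mul_left _ (Nat.modEq_zero_iff_dvd.mp hu0)
        obtain ⟨k, -, hk⟩ := (Nat.dvd_prime_pow hp.out).mp (orderOf_dvd_of_pow_eq_one h4)
        exact ⟨k, hk⟩
      have hov : (orderOf (g ^ v)).Coprime p := by
        have h4 : (g ^ v) ^ n = 1 := by
          rw [← pow_mul, ← orderOf_dvd_iff_pow_eq_one, hgo]
          exact Nat.mul_dvd_mul_right (Nat.modEq_zero_iff_dvd.mp hv0) _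
        exact Nat.Coprime.coprime_dvd_left (orderOf_dvd_of_pow_eq_one h4) (hp.out.coprime_iff_not_dvd.mpr hn).symm
      refine ⟨⟨⟨g ^ u, Finset.mem_filter.mpr ⟨Finset.mem_univ _, H.pow_mem hg u, hou⟩⟩, ⟨g ^ v, ⟨H.pow_mem hg v,
        Subgroup.mem_centralizer_iff.mpr fun z hz => ?_⟩, hov⟩⟩, Subtype.ext hmul⟩
      rw [Set.mem_singleton_iff] at hz
      rw [hz]; exact ((Commute.refl g).pow_pow u v).eq
  rw [← Nat.card_congr (Equiv.ofBijective F hF), Nat.card_sigma]
  exact Finset.sum_coe_sort S fun x => copIn p (H ⊓ Subgroup.centralizer {x})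

/-- The proportion of `p'`-elements in `D O` equals that in `D`, for a normal `p'`-subgroup `O`. -/
theorem copIn_mul [hp : Fact p.Prime] {C D : Subgroup G} (hDC : D ≤ C) (O : Subgroup C) [O.Normal]
    (hO : (Nat.card O).Coprime p) (htop : O ⊔ D.subgroupOf C = ⊤) :
    copIn p C * Nat.card D = copIn p D * Nat.card C := by
  set f := QuotientGroup.mk' O
  set T : Set (C ⧸ O) := {z | (orderOf z).Coprime p} with hT
  have hiff : ∀ g : C, (orderOf (f g)).Coprime p ↔ (orderOf (g : G)).Coprime p := by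
    intro g
    rw [Subgroup.orderOf_coe]
    refine ⟨fun h => ?_, fun h => h.coprime_dvd_left (orderOf_map_dvd f g)⟩
    have h1 : g ^ orderOf (f g) ∈ O := by
      rw [← QuotientGroup.eq_one_iff]; show f (g ^ orderOf (f g)) = 1; rw [map_pow, pow_orderOf_eq_one]
    have h2 : g ^ (orderOf (f g) * Nat.card O) = 1 := by
      rw [pow_mul]
      exact congrArg Subtype.val (pow_card_eq_one' (x := (⟨_, h1⟩ : O)))
    exact (h.mul_left hO).coprime_dvd_left (orderOf_dvd_of_pow_eq_one h2)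
  have key : ∀ (X : Subgroup C), X.map f = ⊤ → Nat.card {y : X // f y ∈ T} =
      Nat.card (O ⊓ X : Subgroup C) * Nat.card T := by
    intro X hX
    set g := f.comp X.subtype
    have hg : Function.Surjective g := by
      intro z
      obtain ⟨x, hx, rfl⟩ := (hX.symm ▸ Subgroup.mem_top z : z ∈ X.map f)
      exact ⟨⟨x, hx⟩, rfl⟩
    haveI : Fintype (C ⧸ O) := Fintype.ofFinite _
    classical
    have hfib : ∀ z : C ⧸ O, Nat.card {y : X // g y = z} = Nat.card (O ⊓ X : Subgroup C) := by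
      intro z
      obtain ⟨x₀, rfl⟩ := hg z
      refine Nat.card_congr
        { toFun := fun y => ⟨((x₀ : C))⁻¹ * (y.1 : C), ⟨?_, X.mul_mem (X.inv_mem x₀.2) y.1.2⟩⟩
          invFun := fun o => ⟨x₀ * ⟨o.1, o.2.2⟩, ?_⟩
          left_inv := fun y => ?_
          right_inv := fun o => ?_ }
      · exact QuotientGroup.eq.mp y.2.symm
      · show f ((x₀ : C) * o.1) = f x₀
        rw [map_mul, show f o.1 = 1 from (QuotientGroup.eq_one_iff _).mpr o.2.1, mul_one]
      · ext; simp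
      · ext; simp
    let e : {y : X // f y ∈ T} ≃ Σ z : T, {y : X // g y = z} :=
      { toFun := fun y => ⟨⟨f y.1, y.2⟩, ⟨y.1, rfl⟩⟩
        invFun := fun s => ⟨s.2.1, by rw [show f (s.2.1 : C) = s.1.1 from s.2.2]; exact s.1.2⟩
        left_inv := fun y => rfl
        right_inv := by rintro ⟨⟨z, hz⟩, ⟨y, hy⟩⟩; obtain rfl : f (y : C) = z := hy; rfl }
    rw [Nat.card_congr e, Nat.card_sigma, Finset.sum_congr rfl fun (z : T) _ => hfib z.1, Finset.sum_const, smul_eq_mul,
      mul_comm, Finset.card_univ, Nat.card_eq_fintype_card (α := T)]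
  have hC : copIn p C = Nat.card {y : (⊤ : Subgroup C) // f y ∈ T} := by
    refine Nat.card_congr
      { toFun := fun y => ⟨⟨⟨y.1, y.2.1⟩, Subgroup.mem_top _⟩, (hiff _).mpr y.2.2⟩
        invFun := fun y => ⟨((y.1 : C) : G), (y.1 : C).2, (hiff _).mp y.2⟩
        left_inv := fun y => rfl
        right_inv := fun y => rfl }
  have hD : copIn p D = Nat.card {y : D.subgroupOf C // f y ∈ T} := by
    refine Nat.card_congr
      { toFun := fun y => ⟨⟨⟨y.1, hDC y.2.1⟩, y.2.1⟩, (hiff _).mpr y.2.2⟩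
        invFun := fun y => ⟨((y.1 : C) : G), y.1.2, (hiff _).mp y.2⟩
        left_inv := fun y => rfl
        right_inv := fun y => rfl }
  have hDf : (D.subgroupOf C).map f = ⊤ := by
    have := congrArg (Subgroup.map f) htop
    rwa [Subgroup.map_sup, QuotientGroup.map_mk'_self, bot_sup_eq, Subgroup.map_top_of_surjective f (QuotientGroup.mk'_surjective O)] at this
  rw [hC, hD, key _ (Subgroup.map_top_of_surjective f (QuotientGroup.mk'_surjective O)), key _ hDf, inf_top_eq]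
  have e1 := Core.card_sup_mul_card_inf (D.subgroupOf C) O
  rw [sup_comm, inf_comm, htop, Subgroup.card_top, Nat.card_congr (Subgroup.subgroupOfEquivOfLe hDC).toEquiv] at e1
  calc Nat.card O * Nat.card T * Nat.card D = Nat.card T * (Nat.card O * Nat.card D) := by ring
    _ = Nat.card T * (Nat.card C * Nat.card (O ⊓ D.subgroupOf C : Subgroup C)) := by rw [e1]; ring
    _ = _ := by ring

theorem inf_normalizer_le_normalizer_sup (X Y : Subgroup G) :
    Subgroup.normalizer (X : Set G) ⊓ Subgroup.normalizer (Y : Set G) ≤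
      Subgroup.normalizer ((X ⊔ Y : Subgroup G) : Set G) := by
  intro g hg
  rw [Subgroup.mem_inf, Subgroup.mem_normalizer_iff_map_conj_eq, Subgroup.mem_normalizer_iff_map_conj_eq] at hg
  rw [Subgroup.mem_normalizer_iff_map_conj_eq, Subgroup.map_sup, hg.1, hg.2]

/-- `P` is a Sylow `p`-subgroup and `A` a complement to it in its normalizer. -/
structure Borel (p : ℕ) [Fact p.Prime] (P : Sylow p G) (A : Subgroup G) : Prop where
  cop : (Nat.card A).Coprime p
  cyclic : IsCyclic A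
  ne : A ≠ ⊥
  le : A ≤ Subgroup.normalizer ((P : Subgroup G) : Set G)
  sup : ∀ x ∈ Subgroup.normalizer ((P : Subgroup G) : Set G), ∃ r ∈ (P : Subgroup G), ∃ a ∈ A, x = r * a
  ct : Subgroup.normalizer (centerThompsonOf p (P : Subgroup G) : Set G) =
    Subgroup.normalizer ((P : Subgroup G) : Set G)
  fixed : ∀ a ∈ A, a ≠ 1 → ∀ x ∈ (P : Subgroup G), a * x = x * a → ∀ b ∈ A, b * x = x * b
  moved : ∃ a ∈ A, ∃ x ∈ (P : Subgroup G), a * x ≠ x * a

namespace Hyp

variable (h : Hyp p G)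
include h

theorem pResidual_eq_top {r : ℕ} [Fact r.Prime] : pResidual r G = ⊤ :=
  (h.normal_eq Transfer.pResidual_normal).resolve_left fun e =>
    h.top_not_pGroup (r := r) ((Transfer.isPGroup_quotient_pResidual (G := G) (p := r)).of_equiv
      ((QuotientGroup.quotientMulEquivOfEq e).trans QuotientGroup.quotientBot))

theorem exists_max {L : Subgroup G} (hL : (Nat.card L).Coprime p) (hne : L ≠ ⊥) :
    ∃ K : Subgroup G, L ≤ K ∧ IsMaxPrime p K := by
  obtain ⟨K, hLK, hK⟩ := Finite.exists_le_maximal (p := fun K : Subgroup G => (Nat.card K).Coprime p) hL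
  exact ⟨K, hLK, fun e => hne (le_bot_iff.mp (e ▸ hLK)), hK.1, fun L' hL' hle => le_antisymm (hK.2 hL' hle) hle⟩

theorem max_setup {K : Subgroup G} (hK : IsMaxPrime p K) :
    ∃ W : Subgroup G, Setup p K W (Subgroup.normalizer (K : Set G)) := by
  obtain ⟨W, M, hs⟩ := h.exists_setup hK
  exact ⟨W, (h.setup_eq hs) ▸ hs⟩

theorem exists_sylow_ne_bot [Fact p.Prime] (P : Sylow p G) : (P : Subgroup G) ≠ ⊥ := by
  intro e
  have hd : ∃ q : ℕ, q.Prime ∧ q ≠ p ∧ q ∣ Nat.card G := by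
    by_contra hcon
    simp only [not_exists, not_and] at hcon
    refine h.top_not_pGroup (r := p) (IsPGroup.of_card (n := (Nat.card G).primeFactorsList.length)
      (Nat.eq_prime_pow_of_unique_prime_dvd (Nat.card_pos).ne' fun {q} hq hd => ?_))
    by_contra hne
    exact hcon q hq hne hd
  obtain ⟨q, hq, hqp, hqG⟩ := hd
  haveI := Fact.mk hq
  obtain ⟨Q⟩ := (inferInstance : Nonempty (Sylow q G))
  have hQ : (Q : Subgroup G) ≠ ⊥ := Q.ne_bot_of_dvd_card hqG
  obtain ⟨g, -, ⟨k, hk⟩, hgc⟩ := h.exists_mover hqp Q hQ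
  have hg : IsPGroup p (Subgroup.zpowers g) := IsPGroup.of_card (n := k) (by rw [Nat.card_zpowers, hk])
  obtain ⟨u, hu⟩ := PLocal.exists_conj_le_sylow hg P
  have h1 : u * g * u⁻¹ ∈ (P : Subgroup G) := hu ⟨g, Subgroup.mem_zpowers g, rfl⟩
  rw [e, Subgroup.mem_bot, conj_eq_one_iff] at h1
  exact hgc (h1 ▸ Subgroup.one_mem _)

theorem exists_borel [Fact p.Prime] (P : Sylow p G) : ∃ A : Subgroup G, Borel p P A := by
  set Z := centerThompsonOf p (P : Subgroup G)
  set N := Subgroup.normalizer (Z : Set G) with hNdef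
  have hP1 := h.exists_sylow_ne_bot P
  have hN : N ≠ ⊤ := h.normalizer_ne_top (ZJ.ct_ne_bot P.2 hP1) (h.ne_top_of_pGroup (P.2.to_le (ZJ.ct_le p _)))
  have hPN : (P : Subgroup G) ≤ N := Subgroup.le_normalizer.trans (ZJ.normalizer_le_ct p _)
  obtain ⟨A, -, hAN, hA, hj⟩ := h.exists_hall hN (L := ⊥) (by simp) bot_le
  haveI := h.abelian A hA
  have hresP : pResidual p G = ⊤ := h.pResidual_eq_top
  -- transfer: `P` is not central in `N`
  have htransfer : ¬ ∀ n ∈ N, ∃ r ∈ (P : Subgroup G), ∀ x ∈ (P : Subgroup G), n * x * n⁻¹ = r * x * r⁻¹ := by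
    intro hall
    haveI : Group.IsNilpotent (P : Subgroup G) := P.2.isNilpotent
    refine hP1 (Transfer.eq_bot_of_le_commutator le_rfl ?_)
    conv_lhs => rw [← Transfer.focalSubgroup_eq_of_pResidual_eq_top P hresP]
    refine Transfer.focalSubgroup_le_of_forall fun x hx g hgx => ?_
    obtain ⟨n, hn, hna⟩ := ZJ.agreesIn (by have := h.five; omega) h.hns P (A := Subgroup.zpowers x) (g := g)
      (Subgroup.zpowers_le.mpr hx) (by rw [MonoidHom.map_zpowers, Subgroup.zpowers_le]; exact hgx)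
    obtain ⟨r, hr, hrn⟩ := hall n hn
    rw [← hna x (Subgroup.mem_zpowers x), hrn x hx,
      show x⁻¹ * (r * x * r⁻¹) = ⁅x⁻¹, r⁆ by rw [commutatorElement_def]; group]
    exact Subgroup.commutator_mem_commutator (inv_mem hx) hr
  have hopP : opOf p N ≤ (P : Subgroup G) := by
    have hPs : IsPGroup p ((P : Subgroup G).subgroupOf N) := P.2.comap_subtype
    rintro _ ⟨y, hy, rfl⟩
    exact (Core.pCore_le_sylow (P.subtype hPN)) hy
  -- the complement is nontrivial
  have hA1 : A ≠ ⊥ := by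
    intro e
    refine htransfer fun n hn => ?_
    obtain ⟨j, hj⟩ := hj
    have hpg : IsPGroup p N := by
      refine IsPGroup.of_card (n := j) ?_
      rw [← hj, e, Subgroup.relIndex_bot_left]
    exact ⟨n, (P.3 hpg hPN) ▸ hn, fun x _ => rfl⟩
  obtain ⟨K, hAK, hK⟩ := h.exists_max hA hA1
  obtain ⟨W, hs⟩ := h.max_setup hK
  haveI := h.abelian K hK.2.1
  have hAM : A ≤ Subgroup.normalizer (K : Set G) := hAK.trans (h.le_setup hs)
  have hcyc : IsCyclic A := by
    by_contra hnc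
    have hNM := h.noncyclic_le hs hAM hA hnc hN hAN
    refine h.false_of_normalizer_le hs (P.subtype (hPN.trans hNM)) ?_
    rwa [Sylow.coe_subtype, Subgroup.map_subgroupOf_eq_of_le (hPN.trans hNM)]
  have hPop : (P : Subgroup G) ≤ opOf p N := by
    intro v hv
    obtain ⟨r, hr, n, hnN, hn, e⟩ := h.exists_mul hN hA hAN hj (hPN hv)
    have hnP : n ∈ (P : Subgroup G) := by
      have := Subgroup.mul_mem _ (Subgroup.inv_mem _ (hopP hr)) hv
      rwa [e, inv_mul_cancel_left] at this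
    obtain ⟨k, hk⟩ := (IsPGroup.iff_orderOf.mp P.2) ⟨n, hnP⟩
    rw [← Subgroup.orderOf_coe] at hk
    have hnc := conj_eq_of_isCyclic hcyc (fun x hx => h.exp A hA x hx) hn hk
    have hR : opOf p N ⊔ Subgroup.zpowers n ≤ opOf p N := by
      refine h.le_opOf hN hA hAN hj (P.2.to_le (sup_le hopP (Subgroup.zpowers_le.mpr hnP)))
        (sup_le (opOf_le N) (Subgroup.zpowers_le.mpr hnN)) ?_
      refine le_trans (le_inf (hAN.trans (le_normalizer_opOf N)) fun a ha => ?_)
        (inf_normalizer_le_normalizer_sup _ _)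
      exact Subgroup.centralizer_le_normalizer _ (Subgroup.mem_centralizer_iff.mpr fun y hy => by
        obtain ⟨i, hi⟩ := Subgroup.mem_zpowers_iff.mp hy
        rw [← hi]
        exact ((show Commute n a from mul_inv_eq_iff_eq_mul.mp (hnc a ha)).zpow_left i).eq)
    rw [e]
    exact (opOf p N).mul_mem hr (hR (Subgroup.mem_sup_right (Subgroup.mem_zpowers n)))
  have hPeq : opOf p N = (P : Subgroup G) := le_antisymm hopP hPop
  have hNn : N ≤ Subgroup.normalizer ((P : Subgroup G) : Set G) := hPeq ▸ le_normalizer_opOf N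
  have hNeq : N = Subgroup.normalizer ((P : Subgroup G) : Set G) := le_antisymm hNn (ZJ.normalizer_le_ct p _)
  have hsup : ∀ x ∈ N, ∃ r ∈ (P : Subgroup G), ∃ a ∈ A, x = r * a := by
    intro x hx
    have hle : (P : Subgroup G) ⊔ A ≤ N := sup_le hPN hAN
    have h2 : ((P : Subgroup G) ⊔ A).relIndex N = 1 := by
      obtain ⟨j, hj⟩ := hj
      refine Nat.eq_one_of_dvd_coprimes ?_ (Subgroup.relIndex_dvd_of_le_left N le_sup_left)
        ((Subgroup.relIndex_dvd_of_le_left N le_sup_right).trans (dvd_of_eq hj))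
      refine Nat.Coprime.pow_right j ?_
      rw [Nat.coprime_comm, h.prime.coprime_iff_not_dvd]
      exact fun hd => P.not_dvd_index (hd.trans (Subgroup.relIndex_dvd_index_of_le hPN))
    have hx' : x ∈ (((P : Subgroup G) ⊔ A : Subgroup G) : Set G) := Subgroup.relIndex_eq_one.mp h2 hx
    rw [Subgroup.coe_mul_of_right_le_normalizer_left _ _ (hAN.trans hNn)] at hx'
    obtain ⟨r, hr, a, ha, e⟩ := Set.mem_mul.mp hx'
    exact ⟨r, hr, a, ha, e.symm⟩
  have hfixed : ∀ a ∈ A, a ≠ 1 → ∀ x ∈ (P : Subgroup G), a * x = x * a → ∀ b ∈ A, b * x = x * b := by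
    intro a ha ha1 x hx hax b hb
    have hxM : x ∈ Subgroup.normalizer (K : Set G) := h.centralizer_le hs (hAK ha) ha1
      (Subgroup.mem_centralizer_iff.mpr fun z hz => by rw [Set.mem_singleton_iff] at hz; rw [hz]; exact hax)
    have h1 : b * x * b⁻¹ * x⁻¹ ∈ (P : Subgroup G) :=
      Subgroup.mul_mem _ ((Subgroup.mem_normalizer_iff.mp (hNn (hAN hb)) x).mp hx) (Subgroup.inv_mem _ hx)
    have h2 : b * x * b⁻¹ * x⁻¹ ∈ K := by
      rw [mul_assoc, mul_assoc, ← mul_assoc x]
      exact K.mul_mem (hAK hb) ((Subgroup.mem_normalizer_iff.mp hxM _).mp (K.inv_mem (hAK hb)))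
    obtain ⟨j, hj⟩ := IsPGroup.iff_card.mp P.2
    have h3 : b * x * b⁻¹ * x⁻¹ = 1 := orderOf_eq_one_iff.mp (Nat.eq_one_of_dvd_coprimes
      (hK.2.1.pow_right j) (Subgroup.orderOf_dvd_natCard K h2) (hj ▸ Subgroup.orderOf_dvd_natCard _ h1))
    rwa [mul_inv_eq_one, mul_inv_eq_iff_eq_mul] at h3
  refine ⟨A, hA, hcyc, hA1, hAN.trans hNn, fun x hx => hsup x (hNeq ▸ hx), hNeq, hfixed, ?_⟩
  by_contra hcon
  simp only [not_exists, not_and, not_not] at hcon
  refine htransfer fun n hn => ?_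
  obtain ⟨r, hr, a, ha, rfl⟩ := hsup n hn
  refine ⟨r, hr, fun x hx => ?_⟩
  calc r * a * x * (r * a)⁻¹ = r * (a * x) * a⁻¹ * r⁻¹ := by group
    _ = r * x * r⁻¹ := by rw [hcon a ha x hx]; group

variable [Fact p.Prime] {P : Sylow p G} {A : Subgroup G}

theorem agrees_borel (hb : Borel p P A) {B : Subgroup G} (hB : B ≤ (P : Subgroup G)) {g : G}
    (hg : B.map (MulAut.conj g).toMonoidHom ≤ (P : Subgroup G)) :
    ∃ n ∈ Subgroup.normalizer ((P : Subgroup G) : Set G), ∀ b ∈ B, n * b * n⁻¹ = g * b * g⁻¹ := by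
  obtain ⟨n, hn, hna⟩ := ZJ.agreesIn (by have := h.five; omega) h.hns P hB hg
  exact ⟨n, hb.ct ▸ hn, hna⟩

/-- The centralizer of `x ∈ P` is `O_{p'}` times its part in `N(P)`. -/
theorem copIn_centralizer (hb : Borel p P A) {x : G} (hx : x ∈ (P : Subgroup G)) (hx1 : x ≠ 1) :
    copIn p (Subgroup.centralizer {x}) *
        Nat.card (Subgroup.normalizer ((P : Subgroup G) : Set G) ⊓ Subgroup.centralizer {x} : Subgroup G) =
      copIn p (Subgroup.normalizer ((P : Subgroup G) : Set G) ⊓ Subgroup.centralizer {x}) *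
        Nat.card (Subgroup.centralizer ({x} : Set G)) := by
  set N := Subgroup.normalizer ((P : Subgroup G) : Set G)
  set C := Subgroup.centralizer ({x} : Set G) with hCdef
  have hC : C ≠ ⊤ := h.centralizer_singleton_ne_top hx1
  haveI := h.solvable hC
  have hxC : x ∈ C := Subgroup.mem_centralizer_iff.mpr fun z hz => by rw [Set.mem_singleton_iff] at hz; rw [hz]
  -- `P ∩ C` is a Sylow subgroup of `C`
  obtain ⟨S, hS⟩ := (((P.2.to_le (inf_le_left : (P : Subgroup G) ⊓ C ≤ _))).comap_subtype (K := C)).exists_le_sylow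
  set T := (S : Subgroup C).map C.subtype with hT
  have hTeq : T = (P : Subgroup G) ⊓ C := by
    obtain ⟨u, hu⟩ := PLocal.exists_conj_le_sylow (S.2.map C.subtype : IsPGroup p T) P
    have hle : (P : Subgroup G) ⊓ C ≤ T := fun y hy => ⟨⟨y, hy.2⟩, hS hy, rfl⟩
    have hxT : x ∈ T := hle ⟨hx, hxC⟩
    obtain ⟨n, hn, hna⟩ := h.agrees_borel hb (B := Subgroup.zpowers x) (g := u) (Subgroup.zpowers_le.mpr hx)
      (by rw [MonoidHom.map_zpowers, Subgroup.zpowers_le]; exact hu ⟨x, hxT, rfl⟩)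
    have hsub : T.map (MulAut.conj u).toMonoidHom ≤ ((P : Subgroup G) ⊓ C).map (MulAut.conj n).toMonoidHom := by
      rintro _ ⟨t, ht, rfl⟩
      show u * t * u⁻¹ ∈ _
      refine mem_conj.mpr ⟨?_, Subgroup.mem_centralizer_iff.mpr fun z hz => ?_⟩
      · exact (Subgroup.mem_normalizer_iff''.mp hn _).mp (hu ⟨t, ht, rfl⟩)
      · rw [Set.mem_singleton_iff] at hz; rw [hz]
        have htx : x * t = t * x := Subgroup.mem_centralizer_iff.mp ((Subgroup.map_subtype_le _) ht : t ∈ C) x rfl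
        have e1 := hna x (Subgroup.mem_zpowers x)
        calc x * (n⁻¹ * (u * t * u⁻¹) * n) = n⁻¹ * ((n * x * n⁻¹) * (u * t * u⁻¹)) * n := by group
          _ = n⁻¹ * (u * (x * t) * u⁻¹) * n := by rw [e1]; group
          _ = n⁻¹ * ((u * t * u⁻¹) * (u * x * u⁻¹)) * n := by rw [htx]; group
          _ = n⁻¹ * (u * t * u⁻¹) * n * x := by rw [← e1]; group
    have hc := Subgroup.card_le_of_le hsub
    rw [Coprime.card_map_conj, Coprime.card_map_conj] at hc
    exact (Subgroup.eq_of_le_of_card_ge hle hc).symm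
  set O := pPrimeCore p C with hO
  haveI : O.Normal := Subgroup.sSup_normal _ (fun _ h => h.1)
  set f := QuotientGroup.mk' O
  have hf : Function.Surjective f := QuotientGroup.mk'_surjective O
  haveI : (pCore p (C ⧸ O)).Normal := Subgroup.sSup_normal _ (fun _ h => h.1)
  set L := (pCore p (C ⧸ O)).comap f with hL
  haveI : L.Normal := (inferInstance : (pCore p (C ⧸ O)).Normal).comap f
  set S₀ := (S : Subgroup C) ⊓ L with hS₀
  have hOL : O ≤ L := fun o ho => by
    show f o ∈ pCore p (C ⧸ O)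
    rw [show f o = 1 from (QuotientGroup.eq_one_iff o).mpr ho]; exact one_mem _
  have hLeq : L ≤ O ⊔ S₀ := by
    have hfs : (pCore p (C ⧸ O)) ≤ S₀.map f := by
      have h1 : pCore p (C ⧸ O) ≤ (S : Subgroup C).map f := by
        rw [← Sylow.coe_mapSurjective hf S]; exact Core.pCore_le_sylow _
      intro z hz
      obtain ⟨s, hs', rfl⟩ := h1 hz
      exact ⟨s, ⟨hs', hz⟩, rfl⟩
    intro l hl
    obtain ⟨s, hs', e⟩ := hfs (show f l ∈ pCore p (C ⧸ O) from hl)
    have : l * s⁻¹ ∈ O := by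
      rw [← QuotientGroup.eq_one_iff]; show f (l * s⁻¹) = 1; rw [map_mul, map_inv, e, mul_inv_cancel]
    simpa using Subgroup.mul_mem_sup this hs'
  have hfr : (Subgroup.normalizer (S₀ : Set C)) ⊔ L = ⊤ := by
    have h1 := Sylow.normalizer_sup_eq_top (Transfer.sylowOfNormal S L)
    rwa [Transfer.coe_sylowOfNormal, Subgroup.subgroupOf_map_subtype] at h1
  have hxS : (⟨x, hxC⟩ : C) ∈ S₀ := by
    refine ⟨?_, ?_⟩
    · have hxT : x ∈ T := hTeq ▸ ⟨hx, hxC⟩
      obtain ⟨s, hs', e⟩ := hxT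
      have e' : s = ⟨x, hxC⟩ := Subtype.ext e
      exact e' ▸ hs'
    · show f ⟨x, hxC⟩ ∈ pCore p (C ⧸ O)
      set Y := Subgroup.zpowers (f ⟨x, hxC⟩)
      haveI : Y.Normal := by
        exact ⟨fun y hy z => by
          obtain ⟨z, rfl⟩ := hf z
          obtain ⟨i, rfl⟩ := Subgroup.mem_zpowers_iff.mp hy
          refine Subgroup.mem_zpowers_iff.mpr ⟨i, ?_⟩
          rw [← conj_zpow, ← map_inv, ← map_mul, ← map_mul]
          congr 2
          refine Subtype.ext ?_
          show x = (z : G) * x * (z : G)⁻¹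
          rw [eq_mul_inv_iff_mul_eq, Subgroup.mem_centralizer_iff.mp z.2 x rfl]⟩
      obtain ⟨k, hk⟩ := (IsPGroup.iff_orderOf.mp P.2) ⟨x, hx⟩
      rw [← Subgroup.orderOf_coe] at hk
      have hY : IsPGroup p Y := by
        have hd : orderOf (f ⟨x, hxC⟩) ∣ p ^ k :=
          (orderOf_map_dvd f _).trans (dvd_of_eq ((Subgroup.orderOf_coe (⟨x, hxC⟩ : C)).symm.trans hk))
        obtain ⟨i, -, hi⟩ := (Nat.dvd_prime_pow h.prime).mp hd
        exact IsPGroup.of_card (n := i) (by rw [Nat.card_zpowers, hi])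
      exact Core.le_pCore inferInstance hY (Subgroup.mem_zpowers _)
  have hS₀P : S₀.map C.subtype ≤ (P : Subgroup G) :=
    (Subgroup.map_mono inf_le_left).trans (hTeq ▸ inf_le_left : T ≤ (P : Subgroup G))
  have htop : O ⊔ (N ⊓ C).subgroupOf C = ⊤ := by
    have hSN : S₀ ≤ (N ⊓ C).subgroupOf C := fun s hs' =>
      ⟨Subgroup.le_normalizer (hS₀P ⟨s, hs', rfl⟩), s.2⟩
    have hLle : L ≤ O ⊔ (N ⊓ C).subgroupOf C := hLeq.trans (sup_le_sup_left hSN O)
    refine top_le_iff.mp (hfr ▸ sup_le (fun n hn => ?_) hLle)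
    obtain ⟨n', hn', hna⟩ := h.agrees_borel hb (B := S₀.map C.subtype) (g := (n : G)) hS₀P (by
      rintro _ ⟨_, ⟨s, hs', rfl⟩, rfl⟩
      exact hS₀P ⟨n * s * n⁻¹, (Subgroup.mem_normalizer_iff.mp hn s).mp hs', rfl⟩)
    have hn'C : n' ∈ C := Subgroup.mem_centralizer_iff.mpr fun z hz => by
      rw [Set.mem_singleton_iff] at hz; rw [hz]
      have e1 := hna x ⟨_, hxS, rfl⟩
      rw [show (n : G) * x * (n : G)⁻¹ = x from mul_inv_eq_iff_eq_mul.mpr
        (Subgroup.mem_centralizer_iff.mp n.2 x rfl).symm, mul_inv_eq_iff_eq_mul] at e1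
      exact e1.symm
    set d : C := ⟨n', hn'C⟩⁻¹ * n
    have hd : d ∈ L := by
      show f d ∈ pCore p (C ⧸ O)
      refine Core.centralizer_pCore_le_of_isSolvable (Core.pPrimeCore_quotient_pPrimeCore p C) ?_
      refine Subgroup.mem_centralizer_iff.mpr fun z hz => ?_
      obtain ⟨l, rfl⟩ := hf z
      obtain ⟨o, ho, s, hs', e⟩ := Subgroup.mem_sup_of_normal_left.mp (hLeq (show l ∈ L from hz))
      have hsd : s * d = d * s := by
        refine Subtype.ext ?_
        show (s : G) * (n'⁻¹ * (n : G)) = n'⁻¹ * (n : G) * (s : G)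
        have e1 := hna (s : G) ⟨s, hs', rfl⟩
        calc (s : G) * (n'⁻¹ * (n : G)) = n'⁻¹ * (n' * (s : G) * n'⁻¹) * (n : G) := by group
          _ = n'⁻¹ * (n : G) * (s : G) := by rw [e1]; group
      rw [← e, map_mul, show f o = 1 from (QuotientGroup.eq_one_iff o).mpr ho, one_mul, ← map_mul, hsd, map_mul]
    have h1 : (⟨n', hn'C⟩ : C) ∈ O ⊔ (N ⊓ C).subgroupOf C := Subgroup.mem_sup_right ⟨hn', hn'C⟩
    simpa [d] using Subgroup.mul_mem _ h1 (hLle hd)
  exact copIn_mul inf_le_right O (Core.card_pPrimeCore_coprime p C) htop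

open scoped Classical in
/-- The proportion of `p'`-elements in `G` equals that in `N(P)`. -/
theorem copIn_top (hb : Borel p P A) :
    copIn p (⊤ : Subgroup G) * Nat.card (Subgroup.normalizer ((P : Subgroup G) : Set G)) =
      Nat.card G * copIn p (Subgroup.normalizer ((P : Subgroup G) : Set G)) := by
  haveI : Fintype G := Fintype.ofFinite G
  set N := Subgroup.normalizer ((P : Subgroup G) : Set G) with hN
  set isP : G → Prop := fun x => ∃ k, orderOf x = p ^ k
  have h1 : (1 : G) ∈ (Finset.univ : Finset G).filter (fun x => x ∈ (⊤ : Subgroup G) ∧ isP x) :=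
    Finset.mem_filter.mpr ⟨Finset.mem_univ _, Subgroup.mem_top _, 0, by simp⟩
  have h1' : (1 : G) ∈ (Finset.univ : Finset G).filter (fun x => x ∈ N ∧ isP x) :=
    Finset.mem_filter.mpr ⟨Finset.mem_univ _, N.one_mem, 0, by simp⟩
  have hc1 : Subgroup.centralizer ({1} : Set G) = ⊤ := top_le_iff.mp fun g _ =>
    Subgroup.mem_centralizer_iff.mpr fun z hz => by rw [Set.mem_singleton_iff] at hz; rw [hz, one_mul, mul_one]
  have eG := card_eq_sum_copIn (p := p) (⊤ : Subgroup G)
  have eN := card_eq_sum_copIn (p := p) N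
  rw [← Finset.add_sum_erase _ _ h1, hc1, top_inf_eq, Subgroup.card_top] at eG
  rw [← Finset.add_sum_erase _ _ h1', hc1, inf_top_eq] at eN
  simp only [top_inf_eq] at eG
  set SG := ((Finset.univ : Finset G).filter (fun x => x ∈ (⊤ : Subgroup G) ∧ isP x)).erase 1
  set SN := ((Finset.univ : Finset G).filter (fun x => x ∈ N ∧ isP x)).erase 1
  have hSN : ∀ x, x ∈ SN ↔ x ∈ (P : Subgroup G) ∧ x ≠ 1 := by
    intro x
    simp only [SN, Finset.mem_erase, Finset.mem_filter, Finset.mem_univ, true_and, isP]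
    constructor
    · rintro ⟨hx1, hxN, k, hk⟩
      refine ⟨?_, hx1⟩
      have hPn : ((P : Subgroup G).subgroupOf N).Normal := Subgroup.normal_in_normalizer
      have h2 : IsPGroup p (Subgroup.zpowers (⟨x, hxN⟩ : N)) :=
        IsPGroup.of_card (n := k) (by rw [Nat.card_zpowers, ← Subgroup.orderOf_coe, hk])
      obtain ⟨u, hu⟩ := PLocal.exists_conj_le_sylow h2 (P.subtype (Subgroup.le_normalizer : (P : Subgroup G) ≤ N))
      have h3 : u * ⟨x, hxN⟩ * u⁻¹ ∈ (P : Subgroup G).subgroupOf N := hu ⟨_, Subgroup.mem_zpowers _, rfl⟩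
      have h4 := hPn.conj_mem _ h3 u⁻¹
      rwa [show u⁻¹ * (u * ⟨x, hxN⟩ * u⁻¹) * u⁻¹⁻¹ = (⟨x, hxN⟩ : N) by group] at h4
    · rintro ⟨hxP, hx1⟩
      obtain ⟨k, hk⟩ := (IsPGroup.iff_orderOf.mp P.2) ⟨x, hxP⟩
      exact ⟨hx1, Subgroup.le_normalizer hxP, k, by rw [← hk, ← Subgroup.orderOf_coe]⟩
  -- double count pairs `(g, x)`
  have hfib : ∀ (H : Subgroup G) (x y : G), (∃ g ∈ H, g * x * g⁻¹ = y) →
      ((Finset.univ : Finset G).filter fun g => g ∈ H ∧ g * x * g⁻¹ = y).card =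
        Nat.card (H ⊓ Subgroup.centralizer {x} : Subgroup G) := by
    rintro H x y ⟨g₀, hg₀, rfl⟩
    rw [← Fintype.card_subtype, ← Nat.card_eq_fintype_card]
    refine Nat.card_congr
      { toFun := fun g => ⟨g₀⁻¹ * g.1, H.mul_mem (H.inv_mem hg₀) g.2.1, Subgroup.mem_centralizer_iff.mpr fun z hz => ?_⟩
        invFun := fun c => ⟨g₀ * c.1, H.mul_mem hg₀ c.2.1, ?_⟩
        left_inv := fun g => by ext; simp
        right_inv := fun c => by ext; simp }
    · rw [Set.mem_singleton_iff] at hz; rw [hz]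
      calc x * (g₀⁻¹ * g.1) = g₀⁻¹ * (g₀ * x * g₀⁻¹) * g.1 := by group
        _ = g₀⁻¹ * (g.1 * x * (g.1)⁻¹) * g.1 := congrArg (fun t => g₀⁻¹ * t * g.1) g.2.2.symm
        _ = g₀⁻¹ * g.1 * x := by group
    · calc g₀ * c.1 * x * (g₀ * c.1)⁻¹ = g₀ * (c.1 * x) * c.1⁻¹ * g₀⁻¹ := by group
        _ = g₀ * x * g₀⁻¹ := by rw [← Subgroup.mem_centralizer_iff.mp c.2.2 x rfl]; group
  have key : Nat.card G * ∑ x ∈ SN, copIn p (N ⊓ Subgroup.centralizer {x}) =
      Nat.card N * ∑ y ∈ SG, copIn p (Subgroup.centralizer {y}) := by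
    rw [Finset.mul_sum, Finset.mul_sum]
    have e1 : ∀ x ∈ SN, Nat.card G * copIn p (N ⊓ Subgroup.centralizer {x}) =
        ∑ g : G, copIn p (N ⊓ Subgroup.centralizer {x}) := fun x _ => by
      rw [Finset.sum_const, Finset.card_univ, smul_eq_mul, Nat.card_eq_fintype_card]
    rw [Finset.sum_congr rfl e1, ← Finset.sum_product']
    rw [← Finset.sum_fiberwise_of_maps_to (t := SG) (g := fun q : G × G => q.2 * q.1 * q.2⁻¹)]
    swap
    · rintro ⟨x, g⟩ hq
      obtain ⟨hxP, hx1⟩ := (hSN x).mp (Finset.mem_product.mp hq).1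
      obtain ⟨k, hk⟩ := (IsPGroup.iff_orderOf.mp P.2) ⟨x, hxP⟩
      simp only [SG, Finset.mem_erase, Finset.mem_filter, Finset.mem_univ, true_and, Subgroup.mem_top, isP]
      refine ⟨fun e => hx1 (conj_eq_one_iff.mp e), k, ?_⟩
      rw [show g * x * g⁻¹ = MulAut.conj g x from rfl, MulEquiv.orderOf_eq, ← hk, ← Subgroup.orderOf_coe]
    refine Finset.sum_congr rfl fun y hy => ?_
    simp only [SG, Finset.mem_erase, Finset.mem_filter, Finset.mem_univ, true_and, Subgroup.mem_top, isP] at hy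
    obtain ⟨hy1, k, hk⟩ := hy
    obtain ⟨u, hu⟩ := PLocal.exists_conj_le_sylow
      (IsPGroup.of_card (n := k) (by rw [Nat.card_zpowers, hk]) : IsPGroup p (Subgroup.zpowers y)) P
    set x₀ := u * y * u⁻¹ with hx₀
    have hx₀P : x₀ ∈ (P : Subgroup G) := hu ⟨y, Subgroup.mem_zpowers y, rfl⟩
    have hx₀1 : x₀ ≠ 1 := fun e => hy1 (conj_eq_one_iff.mp e)
    -- the elements of `P` conjugate to `y` form the orbit of `x₀` under `N`
    set O := SN.filter fun x => ∃ g : G, g * x * g⁻¹ = y with hOdef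
    have horb : ∀ x, x ∈ O ↔ ∃ n ∈ N, n * x₀ * n⁻¹ = x := by
      intro x
      simp only [O, Finset.mem_filter, hSN]
      constructor
      · rintro ⟨⟨hxP, -⟩, g, hg⟩
        have hmap : g⁻¹ * u⁻¹ * x₀ * (g⁻¹ * u⁻¹)⁻¹ = x := by rw [hx₀, ← hg]; group
        obtain ⟨n, hn, hna⟩ := h.agrees_borel hb (B := Subgroup.zpowers x₀) (g := g⁻¹ * u⁻¹)
          (Subgroup.zpowers_le.mpr hx₀P) (by
            rw [MonoidHom.map_zpowers, Subgroup.zpowers_le]
            show g⁻¹ * u⁻¹ * x₀ * (g⁻¹ * u⁻¹)⁻¹ ∈ (P : Subgroup G)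
            rwa [hmap])
        exact ⟨n, hn, (hna x₀ (Subgroup.mem_zpowers _)).trans hmap⟩
      · rintro ⟨n, hn, rfl⟩
        refine ⟨⟨(Subgroup.mem_normalizer_iff.mp hn x₀).mp hx₀P, fun e => hx₀1 (conj_eq_one_iff.mp e)⟩,
          u⁻¹ * n⁻¹, by rw [hx₀]; group⟩
    have hsplit : ((SN ×ˢ (Finset.univ : Finset G)).filter fun q => q.2 * q.1 * q.2⁻¹ = y) =
        ((O ×ˢ (Finset.univ : Finset G)).filter fun q => q.2 * q.1 * q.2⁻¹ = y) := by
      ext ⟨x, g⟩
      simp only [O, Finset.mem_filter, Finset.mem_product, Finset.mem_univ, and_true]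
      exact ⟨fun ⟨a, b⟩ => ⟨⟨a, g, b⟩, b⟩, fun ⟨⟨a, _⟩, b⟩ => ⟨a, b⟩⟩
    rw [hsplit, Finset.sum_filter, Finset.sum_product]
    have e2 : ∀ x ∈ O, (∑ g : G, if g * x * g⁻¹ = y then copIn p (N ⊓ Subgroup.centralizer {x}) else 0) =
        Nat.card (N ⊓ Subgroup.centralizer {x} : Subgroup G) * copIn p (Subgroup.centralizer {y}) := by
      intro x hx
      obtain ⟨hxS, g, hg⟩ := Finset.mem_filter.mp hx
      obtain ⟨hxP, hx1⟩ := (hSN x).mp hxS
      rw [← Finset.sum_filter, Finset.sum_const, smul_eq_mul]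
      have hf := hfib ⊤ x y ⟨g, Subgroup.mem_top _, hg⟩
      simp only [Subgroup.mem_top, true_and, top_inf_eq] at hf
      rw [hf, mul_comm, ← h.copIn_centralizer hb hxP hx1, mul_comm]
      congr 1
      refine Nat.card_congr ((MulAut.conj g).toEquiv.subtypeEquiv fun z => ?_)
      show z ∈ Subgroup.centralizer {x} ∧ _ ↔ g * z * g⁻¹ ∈ Subgroup.centralizer {y} ∧ _
      refine and_congr ?_ (by rw [show (MulAut.conj g).toEquiv z = MulAut.conj g z from rfl, MulEquiv.orderOf_eq])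
      simp only [Subgroup.mem_centralizer_iff, Set.mem_singleton_iff, forall_eq, ← hg]
      constructor
      · intro hz
        calc g * x * g⁻¹ * (g * z * g⁻¹) = g * (x * z) * g⁻¹ := by group
          _ = g * z * g⁻¹ * (g * x * g⁻¹) := by rw [hz]; group
      · intro hz
        calc x * z = g⁻¹ * (g * x * g⁻¹ * (g * z * g⁻¹)) * g := by group
          _ = z * x := by rw [hz]; group
    rw [Finset.sum_congr rfl e2, ← Finset.sum_mul]
    congr 1
    -- orbit-stabilizer
    have hmaps : ∀ n ∈ (Finset.univ : Finset G).filter (fun n => n ∈ N), n * x₀ * n⁻¹ ∈ O := fun n hn =>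
      (horb _).mpr ⟨n, (Finset.mem_filter.mp hn).2, rfl⟩
    have hcard := Finset.card_eq_sum_card_fiberwise hmaps
    rw [← Fintype.card_subtype, ← Nat.card_eq_fintype_card] at hcard
    refine Eq.symm (hcard.trans (Finset.sum_congr rfl fun x hx => ?_))
    obtain ⟨n, hn, hnx⟩ := (horb x).mp hx
    rw [Finset.filter_filter, hfib N x₀ x ⟨n, hn, hnx⟩]
    refine Nat.card_congr ((MulAut.conj n).toEquiv.subtypeEquiv fun z => ?_)
    show z ∈ N ∧ z ∈ Subgroup.centralizer {x₀} ↔ n * z * n⁻¹ ∈ N ∧ n * z * n⁻¹ ∈ Subgroup.centralizer {x}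
    refine and_congr ?_ ?_
    · exact ⟨fun hz => N.mul_mem (N.mul_mem hn hz) (N.inv_mem hn), fun hz => by
        have := N.mul_mem (N.mul_mem (N.inv_mem hn) hz) hn
        rwa [show n⁻¹ * (n * z * n⁻¹) * n = z by group] at this⟩
    · simp only [Subgroup.mem_centralizer_iff, Set.mem_singleton_iff, forall_eq, ← hnx]
      constructor
      · intro hz
        calc n * x₀ * n⁻¹ * (n * z * n⁻¹) = n * (x₀ * z) * n⁻¹ := by group
          _ = n * z * n⁻¹ * (n * x₀ * n⁻¹) := by rw [hz]; group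
      · intro hz
        calc x₀ * z = n⁻¹ * (n * x₀ * n⁻¹ * (n * z * n⁻¹)) * n := by group
          _ = z * x₀ := by rw [hz]; group
  have eG' := congrArg (fun t => Nat.card N * t) eG
  have eN' := congrArg (fun t => Nat.card G * t) eN
  simp only [mul_add] at eG' eN'
  rw [key] at eN'
  have := mul_comm (Nat.card G) (Nat.card N)
  rw [mul_comm]
  omega

end Hyp

end Cfsg.Agent.Transfer.PPrimeExp
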