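import Cfsg.Agent.Transfer.PPrimeExp.Count
import Mathlib.Tactic.FieldSimp
import Mathlib.Tactic.Positivity
import Mathlib.Tactic.LinearCombination

/-!
Counting elements of `p'`-order: there is no minimal simple group satisfying `Hyp`.
-/

set_option autoImplicit false
set_option linter.unusedSectionVars false

namespace Cfsg.Agent.Transfer.PPrimeExp

open Cfsg
open scoped Pointwise

theorem two_mul_card_lt {p : ℕ} (hp : 5 ≤ p) {R : Finset ℕ} (hR : R ⊆ (p - 1).primeFactors) :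
    2 * R.card < p := by
  have h1 : 2 ^ R.card ≤ p - 1 := by
    calc 2 ^ R.card ≤ 2 ^ (p - 1).primeFactors.card := Nat.pow_le_pow_right two_pos (Finset.card_le_card hR)
      _ ≤ ∏ q ∈ (p - 1).primeFactors, q :=
        Finset.pow_card_le_prod _ _ _ fun q hq => (Nat.prime_of_mem_primeFactors hq).two_le
      _ ≤ p - 1 := Nat.le_of_dvd (by omega) (Nat.prod_primeFactors_dvd _)
  have h2 : ∀ m : ℕ, 2 * m ≤ 2 ^ m := by
    intro m
    induction m with
    | zero => simp
    | succ m ih => rcases m with _ | m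
                   · simp
                   · rw [pow_succ]; have := Nat.one_le_two_pow (n := m); omega
  have := h2 R.card
  omega

/-- The class equation for elements of `p'`-order has no solution. -/
theorem arith {ι : Type*} (R : Finset ι) (κ j n : ι → ℕ) {p e α γ g Y : ℕ} (hp : 5 ≤ p) (he : 2 ≤ e)
    (hep : e + 1 ≤ p) (hγ : γ < α) (hG : p ^ α * e ≤ g) (hR : 2 * R.card < p) (hκ : ∀ i ∈ R, p < κ i)
    (hn : ∀ i ∈ R, n i * (κ i * p ^ j i) = g)
    (heq : (1 + ∑ i ∈ R, n i * (κ i - 1)) * (p ^ α * e) = g * (1 + Y))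
    (hY : Y * p ^ γ = (e - 1) * p ^ α) : False := by
  have hp5 : (5 : ℚ) ≤ p := by exact_mod_cast hp
  have he2 : (2 : ℚ) ≤ e := by exact_mod_cast he
  have hep' : (e : ℚ) + 1 ≤ p := by exact_mod_cast hep
  set P : ℚ := (p : ℚ) ^ α
  set c : ℚ := (p : ℚ) ^ γ
  have hc : 0 < c := by positivity
  have hP : 0 < P := by positivity
  have hPc : p * c ≤ P := by
    show (p : ℚ) * p ^ γ ≤ p ^ α
    rw [← pow_succ']; exact pow_le_pow_right₀ (by linarith) hγ
  have hPe : 0 < P * e := by positivity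
  have hg : P * e ≤ (g : ℚ) := by
    have : ((p ^ α * e : ℕ) : ℚ) ≤ g := by exact_mod_cast hG
    push_cast at this; exact this
  have hg0 : (0 : ℚ) < g := lt_of_lt_of_le hPe hg
  set T : ι → ℚ := fun i => (1 - 1 / (κ i : ℚ)) / (p : ℚ) ^ j i with hTdef
  have hsum : ((∑ i ∈ R, n i * (κ i - 1) : ℕ) : ℚ) = g * ∑ i ∈ R, T i := by
    rw [Nat.cast_sum, Finset.mul_sum]
    refine Finset.sum_congr rfl fun i hi => ?_
    have := hκ i hi
    have h1 : (κ i : ℚ) ≠ 0 := Nat.cast_ne_zero.mpr (by omega)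
    have h2 : (p : ℚ) ^ j i ≠ 0 := by positivity
    rw [Nat.cast_mul, Nat.cast_sub (by omega : 1 ≤ κ i), ← hn i hi, hTdef]
    push_cast
    field_simp
  have hY' : (Y : ℚ) = ((e : ℚ) - 1) * P / c := by
    rw [eq_div_iff hc.ne']
    have := congrArg (fun t : ℕ => (t : ℚ)) hY
    simp only [Nat.cast_mul, Nat.cast_pow, Nat.cast_sub (by omega : 1 ≤ e), Nat.cast_one] at this
    exact this
  have key : 1 / (g : ℚ) + ∑ i ∈ R, T i = 1 / (P * e) + (1 - 1 / (e : ℚ)) / c := by
    have h1 : (1 + (g : ℚ) * ∑ i ∈ R, T i) * (P * e) = g * (1 + Y) := by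
      rw [← hsum]
      have := congrArg (fun t : ℕ => (t : ℚ)) heq
      simp only [Nat.cast_mul, Nat.cast_add, Nat.cast_pow, Nat.cast_one] at this
      exact this
    have h2 : 1 / (g : ℚ) + ∑ i ∈ R, T i = (1 + Y) / (P * e) := by
      rw [eq_div_iff hPe.ne']
      field_simp
      linear_combination h1
    rw [h2, hY']
    field_simp
  have hκ' : ∀ i ∈ R, 1 / (κ i : ℚ) ≤ 1 / ((p : ℚ) + 1) := fun i hi =>
    one_div_le_one_div_of_le (by linarith) (by exact_mod_cast hκ i hi)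
  have hp1 : 1 / ((p : ℚ) + 1) < 1 / p := one_div_lt_one_div_of_lt (by linarith) (by linarith)
  have hp2 : 1 / (p : ℚ) ≤ 1 := by rw [div_le_one (by linarith)]; linarith
  have hT0 : ∀ i ∈ R, 0 ≤ T i := fun i hi =>
    div_nonneg (by have := hκ' i hi; linarith) (by positivity)
  have hg1 : 0 < 1 / (g : ℚ) := by positivity
  by_cases hex : ∃ i ∈ R, j i ≤ γ
  · obtain ⟨i, hi, hji⟩ := hex
    have h1 : (1 - 1 / ((p : ℚ) + 1)) / c ≤ T i :=
      div_le_div₀ (by have := hκ' i hi; linarith) (by have := hκ' i hi; linarith) (by positivity)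
        (pow_le_pow_right₀ (by linarith) hji)
    have h2 : 1 / (P * e) + (1 - 1 / (e : ℚ)) / c ≤ (1 - 1 / (p : ℚ)) / c := by
      have h3 : 1 / (P * e) ≤ 1 / (p * c * e) :=
        one_div_le_one_div_of_le (by positivity) (mul_le_mul_of_nonneg_right hPc (by linarith))
      have h4 : 1 / (p * c * e) + (1 - 1 / (e : ℚ)) / c =
          (1 - 1 / (p : ℚ)) / c - ((p : ℚ) - 1 - e) / (p * c * e) := by field_simp; ring
      have h5 : 0 ≤ ((p : ℚ) - 1 - e) / (p * c * e) := div_nonneg (by linarith) (by positivity)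
      linarith
    have h6 : (1 - 1 / (p : ℚ)) / c < (1 - 1 / ((p : ℚ) + 1)) / c :=
      div_lt_div_of_pos_right (by linarith) hc
    have h7 := Finset.single_le_sum hT0 hi
    linarith
  · simp only [not_exists, not_and, not_le] at hex
    have h1 : ∀ i ∈ R, T i ≤ 1 / (p * c) := fun i hi =>
      div_le_div₀ zero_le_one (by have := (one_div_nonneg).mpr (Nat.cast_nonneg (α := ℚ) (κ i)); linarith)
        (by positivity) (by show (p : ℚ) * p ^ γ ≤ p ^ j i; rw [← pow_succ']; exact pow_le_pow_right₀ (by linarith) (hex i hi))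
    have h2 := Finset.sum_le_card_nsmul R T _ h1
    rw [nsmul_eq_mul] at h2
    have h3 : (R.card : ℚ) * (1 / (p * c)) < (1 / 2) / c := by
      have : (2 : ℚ) * R.card < p := by exact_mod_cast hR
      rw [div_div, mul_one_div, div_lt_div_iff₀ (by positivity) (by positivity)]
      nlinarith
    have h4 : 1 / (g : ℚ) ≤ 1 / (P * e) := one_div_le_one_div_of_le hPe hg
    have h5 : (1 / 2) / c ≤ (1 - 1 / (e : ℚ)) / c := div_le_div_of_nonneg_right (by
      have := one_div_le_one_div_of_le two_pos he2; linarith) hc.le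
    linarith

variable {G : Type*} [Group G] [Finite G] {p : ℕ}

namespace Hyp

variable (h : Hyp p G)
include h

/-- Every `p'`-subgroup of `H` is conjugate into a Hall subgroup `A`. -/
theorem exists_conj_le_hall {A H L : Subgroup G} (hH : H ≠ ⊤) (hA : (Nat.card A).Coprime p) (hAH : A ≤ H)
    (hj : ∃ j, A.relIndex H = p ^ j) (hL : L ≤ H) (hLc : (Nat.card L).Coprime p) :
    ∃ m ∈ H, ∀ x ∈ L, m * x * m⁻¹ ∈ A := by
  haveI := Fact.mk h.prime
  haveI := h.solvable hH
  obtain ⟨j, hj⟩ := hj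
  have hall : IsPiHall {p}ᶜ (A.subgroupOf H) := by
    rw [Core.isPiHall_iff]
    refine ⟨(Core.isPiNat_compl_singleton_iff_coprime h.prime).mpr
      (by rwa [Nat.card_congr (Subgroup.subgroupOfEquivOfLe hAH).toEquiv]), ?_⟩
    intro q hq hd
    have := (Nat.prime_dvd_prime_iff_eq hq h.prime).mp (hq.dvd_of_dvd_pow (hd.trans (dvd_of_eq hj)))
    simp [this]
  obtain ⟨g, hg⟩ := Core.exists_le_conj_smul_of_isPiHall Core.isPiSeparable_of_isSolvable
    Core.hallSolvable_of_isSolvable hall (K := L.subgroupOf H)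
    ((Core.isPiNat_compl_singleton_iff_coprime h.prime).mpr
      (by rwa [Nat.card_congr (Subgroup.subgroupOfEquivOfLe hL).toEquiv]))
  refine ⟨((g : G))⁻¹, H.inv_mem g.2, fun x hx => ?_⟩
  have h3 : (⟨x, hL hx⟩ : H) ∈ MulAut.conj g • A.subgroupOf H := hg hx
  rw [Subgroup.mem_pointwise_smul_iff_inv_smul_mem, ← map_inv, MulAut.smul_def, MulAut.conj_apply] at h3
  simpa [Subgroup.mem_subgroupOf] using h3

theorem eq_of_mem {K K' : Subgroup G} (hK : IsMaxPrime p K) (hK' : IsMaxPrime p K') {y : G} (hy : y ∈ K)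
    (hy' : y ∈ K') (hy1 : y ≠ 1) : K = K' := by
  haveI := h.abelian K' hK'.2.1
  obtain ⟨W, hs⟩ := h.max_setup hK
  have h1 : K' ≤ Subgroup.normalizer (K : Set G) := fun k hk => h.centralizer_le hs hy hy1
    (Subgroup.mem_centralizer_iff.mpr fun z hz => by
      rw [Set.mem_singleton_iff] at hz; rw [hz]; exact commute_of_mem K' hy' hk)
  have e := PLocal.card_sup_mul_card_inf (A := K') (B := K) h1
  have h2 : K' ⊔ K = K := hK.2.2 _ ((hK'.2.1.mul_left hK.2.1).coprime_dvd_left (Dvd.intro _ e)) le_sup_right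
  exact hK'.2.2 K hK.2.1 (h2 ▸ le_sup_left)

theorem max_conj {K : Subgroup G} (hK : IsMaxPrime p K) (g : G) :
    IsMaxPrime p (K.map (MulAut.conj g).toMonoidHom) := by
  refine ⟨fun e => hK.1 (Subgroup.eq_bot_of_card_eq _ (by rw [← Coprime.card_map_conj K g, e, Subgroup.card_bot])),
    by rw [Coprime.card_map_conj]; exact hK.2.1, fun L hL hle => ?_⟩
  have h1 := hK.2.2 (L.map (MulAut.conj g⁻¹).toMonoidHom) (by rwa [Coprime.card_map_conj])
    (fun k hk => mem_conj.mpr (hle ⟨k, hk, by simp⟩))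
  refine le_antisymm (fun l hl => mem_conj.mpr ?_) hle
  rw [← h1]; exact mem_conj.mpr (by simpa [mul_assoc] using hl)

theorem exists_sylow_le {K : Subgroup G} (hK : IsMaxPrime p K) {q : ℕ} [hq : Fact q.Prime] (hqK : q ∣ Nat.card K) :
    q ≠ p ∧ ∃ Q : Sylow q G, (Q : Subgroup G) ≤ K ∧ (Q : Subgroup G) ≠ ⊥ := by
  have hqp : q ≠ p := fun e => h.prime.ne_one (Nat.eq_one_of_dvd_coprimes hK.2.1 (e ▸ hqK) dvd_rfl)
  refine ⟨hqp, ?_⟩
  obtain ⟨a, ha⟩ := exists_prime_orderOf_dvd_card' (G := K) q hqK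
  have ha1 : (a : G) ≠ 1 := fun e => hq.out.ne_one (by rw [← ha, ← Subgroup.orderOf_coe, e, orderOf_one])
  obtain ⟨Q, hQ⟩ := (IsPGroup.of_card (p := q) (n := 1) (G := Subgroup.zpowers (a : G))
    (by rw [Nat.card_zpowers, Subgroup.orderOf_coe, ha, pow_one])).exists_le_sylow
  haveI := h.abelian _ (h.sylow_coprime hqp Q.2)
  obtain ⟨W, hs⟩ := h.max_setup hK
  have h1 : (Q : Subgroup G) ≤ Subgroup.normalizer (K : Set G) := fun k hk => h.centralizer_le hs a.2 ha1
    (Subgroup.mem_centralizer_iff.mpr fun z hz => by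
      rw [Set.mem_singleton_iff] at hz; rw [hz]
      exact commute_of_mem (Q : Subgroup G) (hQ (Subgroup.mem_zpowers _)) hk)
  have e := PLocal.card_sup_mul_card_inf (A := (Q : Subgroup G)) (B := K) h1
  have h2 : (Q : Subgroup G) ⊔ K = K :=
    hK.2.2 _ (((h.sylow_coprime hqp Q.2).mul_left hK.2.1).coprime_dvd_left (Dvd.intro _ e)) le_sup_right
  exact ⟨Q, h2 ▸ le_sup_left, fun e => ha1 (Subgroup.mem_bot.mp (e ▸ hQ (Subgroup.mem_zpowers _)))⟩

theorem lt_card {K : Subgroup G} (hK : IsMaxPrime p K) : p < Nat.card K := by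
  haveI := Fact.mk h.prime
  obtain ⟨q, hq, hqK⟩ := Nat.exists_prime_and_dvd fun e => hK.1 (Subgroup.eq_bot_of_card_eq _ e)
  haveI := Fact.mk hq
  obtain ⟨hqp, Q, hQK, hQ⟩ := h.exists_sylow_le hK hqK
  obtain ⟨g, hg, ⟨k, hk⟩, hgc⟩ := h.exists_mover hqp Q hQ
  set f := (MulAut.toPerm (Q : Subgroup G)).comp (Subgroup.normalizerMonoidHom (Q : Subgroup G))
  have h1 : orderOf (f ⟨g, hg⟩) ∣ p ^ k := (orderOf_map_dvd f _).trans (dvd_of_eq ((Subgroup.orderOf_coe _).symm.trans hk))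
  obtain ⟨i, -, hi⟩ := (Nat.dvd_prime_pow h.prime).mp h1
  have hpQ : p ∣ (Nat.card (Q : Subgroup G)).factorial := by
    rw [← Nat.card_perm]
    refine dvd_trans ?_ (orderOf_dvd_natCard (f ⟨g, hg⟩))
    rw [hi]
    refine dvd_pow_self p fun e => hgc (Subgroup.mem_centralizer_iff.mpr fun a ha => ?_)
    rw [e, pow_zero, orderOf_eq_one_iff] at hi
    have h2 : (f ⟨g, hg⟩ ⟨a, ha⟩ : G) = a := by rw [hi]; rfl
    exact (mul_inv_eq_iff_eq_mul.mp h2).symm
  have h3 := (Nat.Prime.dvd_factorial h.prime).mp hpQ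
  have h4 := Nat.le_of_dvd Nat.card_pos (Subgroup.card_dvd_of_le hQK)
  refine lt_of_le_of_ne (h3.trans h4) fun e => h.prime.ne_one ?_
  exact Nat.eq_one_of_dvd_coprimes hK.2.1 (dvd_of_eq e) dvd_rfl

theorem eq_conj {K K' : Subgroup G} (hK : IsMaxPrime p K) (hK' : IsMaxPrime p K') {q : ℕ} [hq : Fact q.Prime]
    (hqK : q ∣ Nat.card K) (hqK' : q ∣ Nat.card K') : ∃ g : G, K.map (MulAut.conj g).toMonoidHom = K' := by
  obtain ⟨-, Q, hQK, hQ⟩ := h.exists_sylow_le hK hqK
  obtain ⟨-, Q', hQK', -⟩ := h.exists_sylow_le hK' hqK'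
  obtain ⟨u, hu⟩ := PLocal.exists_conj_le_sylow Q.2 Q'
  obtain ⟨x, hx, hx1⟩ := (Subgroup.bot_or_exists_ne_one (Q : Subgroup G)).resolve_left hQ
  exact ⟨u, h.eq_of_mem (h.max_conj hK u) hK' ⟨x, hQK hx, rfl⟩ (hQK' (hu ⟨x, hx, rfl⟩))
    (fun e => hx1 (conj_eq_one_iff.mp e))⟩

open scoped Classical in
theorem copIn_top_eq : ∃ (R : Finset ℕ) (K : ℕ → Subgroup G), R ⊆ (p - 1).primeFactors ∧
    (∀ q ∈ R, IsMaxPrime p (K q)) ∧ copIn p (⊤ : Subgroup G) =
      1 + ∑ q ∈ R, (Subgroup.normalizer (K q : Set G)).index * (Nat.card (K q) - 1) := by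
  haveI : Fintype G := Fintype.ofFinite G
  haveI : Fintype (Subgroup G) := Fintype.ofFinite _
  set Ks := (Finset.univ : Finset (Subgroup G)).filter fun K => IsMaxPrime p K with hKs
  have hmem : ∀ {K}, K ∈ Ks → IsMaxPrime p K := fun hK => (Finset.mem_filter.mp hK).2
  set μ : Subgroup G → ℕ := fun K => (Nat.card K).minFac with hμ
  have hμp : ∀ {K}, K ∈ Ks → (μ K).Prime := fun hK =>
    Nat.minFac_prime fun e => (hmem hK).1 (Subgroup.eq_bot_of_card_eq _ e)
  set R := Ks.image μ with hR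
  let Kq : ℕ → Subgroup G := fun q => if hq : ∃ K ∈ Ks, μ K = q then hq.choose else ⊥
  have hKq : ∀ q ∈ R, Kq q ∈ Ks ∧ μ (Kq q) = q := by
    intro q hq
    have hq' : ∃ K ∈ Ks, μ K = q := Finset.mem_image.mp hq
    simp only [Kq, dif_pos hq']
    exact hq'.choose_spec
  refine ⟨R, Kq, fun q hq => ?_, fun q hq => hmem (hKq q hq).1, ?_⟩
  · obtain ⟨hK, e⟩ := hKq q hq
    haveI := Fact.mk (hμp hK)
    have hd : μ (Kq q) ∣ Nat.card (Kq q) := Nat.minFac_dvd _
    rw [← e, Nat.mem_primeFactors]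
    refine ⟨hμp hK, h.lt_of_dvd (hμp hK) (h.exists_sylow_le (hmem hK) hd).1
      (hd.trans (Subgroup.card_subgroup_dvd_card _)), by have := h.five; omega⟩
  set S := ((Finset.univ : Finset G).filter fun y => (orderOf y).Coprime p).erase 1 with hS
  have h0 : copIn p (⊤ : Subgroup G) = S.card + 1 := by
    rw [hS, Finset.card_erase_add_one (Finset.mem_filter.mpr ⟨Finset.mem_univ _, by simp⟩), copIn,
      Nat.card_eq_fintype_card, Fintype.card_subtype]
    congr 1
    ext y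
    simp
  have hU : S = Ks.biUnion fun K => ((Finset.univ : Finset G).filter (· ∈ K)).erase 1 := by
    ext y
    simp only [S, Finset.mem_erase, Finset.mem_filter, Finset.mem_univ, true_and, Finset.mem_biUnion]
    constructor
    · rintro ⟨hy1, hy⟩
      obtain ⟨K, hyK, hK⟩ := h.exists_max (L := Subgroup.zpowers y) (by rwa [Nat.card_zpowers])
        (fun e => hy1 (Subgroup.zpowers_eq_bot.mp e))
      exact ⟨K, Finset.mem_filter.mpr ⟨Finset.mem_univ _, hK⟩, hy1, hyK (Subgroup.mem_zpowers y)⟩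
    · rintro ⟨K, hK, hy1, hy⟩
      exact ⟨hy1, (hmem hK).2.1.coprime_dvd_left (Subgroup.orderOf_dvd_natCard K hy)⟩
  have hdis : (Ks : Set (Subgroup G)).PairwiseDisjoint fun K => ((Finset.univ : Finset G).filter (· ∈ K)).erase 1 := by
    intro K hK K' hK' hne
    refine Finset.disjoint_left.mpr fun y hy hy' => hne ?_
    simp only [Finset.mem_erase, Finset.mem_filter, Finset.mem_univ, true_and] at hy hy'
    exact h.eq_of_mem (hmem hK) (hmem hK') hy.2 hy'.2 hy.1
  have hcard : ∀ H : Subgroup G, ((Finset.univ : Finset G).filter (· ∈ H)).card = Nat.card H := fun H => by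
    rw [← Fintype.card_subtype, ← Nat.card_eq_fintype_card]
  rw [h0, add_comm, hU, Finset.card_biUnion hdis,
    ← Finset.sum_fiberwise_of_maps_to (t := R) (g := μ) (fun K hK => Finset.mem_image_of_mem μ hK)]
  congr 1
  refine Finset.sum_congr rfl fun q hq => ?_
  obtain ⟨hK, hqK⟩ := hKq q hq
  haveI := Fact.mk (hqK ▸ hμp hK : q.Prime)
  set K := Kq q
  set F := Ks.filter fun L => μ L = q with hF
  have hconj : ∀ L ∈ F, ∃ g : G, K.map (MulAut.conj g).toMonoidHom = L := by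
    intro L hL
    obtain ⟨hLK, hLq⟩ := Finset.mem_filter.mp hL
    exact h.eq_conj (q := q) (hmem hK) (hmem hLK) (by rw [← hqK]; exact Nat.minFac_dvd _) (by rw [← hLq]; exact Nat.minFac_dvd _)
  have hterm : ∀ L ∈ F, (((Finset.univ : Finset G).filter (· ∈ L)).erase 1).card = Nat.card K - 1 := by
    intro L hL
    obtain ⟨g, rfl⟩ := hconj L hL
    rw [Finset.card_erase_of_mem (Finset.mem_filter.mpr ⟨Finset.mem_univ _, Subgroup.one_mem _⟩), hcard,
      Coprime.card_map_conj]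
  rw [Finset.sum_congr rfl hterm, Finset.sum_const, smul_eq_mul]
  congr 1
  have hmaps : ∀ g ∈ (Finset.univ : Finset G), K.map (MulAut.conj g).toMonoidHom ∈ F := fun g _ =>
    Finset.mem_filter.mpr ⟨Finset.mem_filter.mpr ⟨Finset.mem_univ _, h.max_conj (hmem hK) g⟩,
      by simp only [μ, Coprime.card_map_conj]; exact hqK⟩
  have hfib : ∀ L ∈ F, ((Finset.univ : Finset G).filter fun g => K.map (MulAut.conj g).toMonoidHom = L).card =
      Nat.card (Subgroup.normalizer (K : Set G)) := by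
    intro L hL
    obtain ⟨g₀, rfl⟩ := hconj L hL
    rw [← hcard]
    have hN : ∀ n, n ∈ Subgroup.normalizer (K : Set G) ↔ K.map (MulAut.conj n).toMonoidHom = K := fun n =>
      Subgroup.mem_normalizer_iff_map_conj_eq
    have hmul : ∀ a b : G, K.map (MulAut.conj (a * b)).toMonoidHom =
        (K.map (MulAut.conj b).toMonoidHom).map (MulAut.conj a).toMonoidHom := fun a b => by
      rw [Subgroup.map_map]; congr 1; ext x; simp [mul_assoc]
    refine Finset.card_nbij' (fun g => g₀⁻¹ * g) (fun n => g₀ * n) (fun g hg => ?_) (fun n hn => ?_)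
      (fun g _ => by simp) (fun n _ => by simp)
    · simp only [Finset.mem_coe, Finset.mem_filter, Finset.mem_univ, true_and] at hg ⊢
      rw [hN, hmul, hg, ← hmul, inv_mul_cancel]
      ext x; simp [mem_conj]
    · simp only [Finset.mem_coe, Finset.mem_filter, Finset.mem_univ, true_and, hN] at hn ⊢
      rw [hmul, hn]
  have e := Finset.card_eq_sum_card_fiberwise hmaps
  rw [Finset.card_univ, ← Nat.card_eq_fintype_card, Finset.sum_congr rfl hfib, Finset.sum_const, smul_eq_mul,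
    ← Subgroup.index_mul_card (Subgroup.normalizer (K : Set G))] at e
  exact (Nat.eq_of_mul_eq_mul_right Nat.card_pos e).symm

variable [Fact p.Prime] {P : Sylow p G} {A : Subgroup G}

theorem eq_one_of_mem_both (hb : Borel p P A) {x : G} (hx : x ∈ (P : Subgroup G)) (hx' : x ∈ A) : x = 1 := by
  obtain ⟨j, hj⟩ := IsPGroup.iff_card.mp P.2
  exact orderOf_eq_one_iff.mp (Nat.eq_one_of_dvd_coprimes (hb.cop.pow_right j)
    (Subgroup.orderOf_dvd_natCard A hx') (hj ▸ Subgroup.orderOf_dvd_natCard _ hx))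

theorem card_normalizer (hb : Borel p P A) :
    Nat.card (Subgroup.normalizer ((P : Subgroup G) : Set G)) = Nat.card (P : Subgroup G) * Nat.card A := by
  set N := Subgroup.normalizer ((P : Subgroup G) : Set G)
  rw [← Nat.card_prod]
  refine (Nat.card_congr (Equiv.ofBijective (fun z : ↥(P : Subgroup G) × ↥A =>
    (⟨(z.1 : G) * z.2, N.mul_mem (Subgroup.le_normalizer z.1.2) (hb.le z.2.2)⟩ : N)) ⟨?_, ?_⟩)).symm
  · rintro ⟨r, a⟩ ⟨r', a'⟩ e
    have e' : (r : G) * a = r' * a' := congrArg Subtype.val e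
    have e2 : (r' : G)⁻¹ * r = a' * (a : G)⁻¹ := by
      rw [eq_mul_inv_iff_mul_eq, mul_assoc, e', inv_mul_cancel_left]
    have h1 : (r' : G)⁻¹ * r = 1 := h.eq_one_of_mem_both hb
      (Subgroup.mul_mem _ (Subgroup.inv_mem _ r'.2) r.2) (e2 ▸ A.mul_mem a'.2 (A.inv_mem a.2))
    have h2 : (r : G) = r' := (inv_mul_eq_one.mp h1).symm
    rw [h2] at e'
    exact Prod.ext (Subtype.ext h2) (Subtype.ext (mul_left_cancel e'))
  · rintro ⟨x, hx⟩
    obtain ⟨r, hr, a, ha, rfl⟩ := hb.sup x hx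
    exact ⟨(⟨r, hr⟩, ⟨a, ha⟩), rfl⟩

open scoped Classical in
theorem copIn_normalizer (hb : Borel p P A) : ∃ Y : ℕ,
    copIn p (Subgroup.normalizer ((P : Subgroup G) : Set G)) = 1 + Y ∧
      Y * Nat.card ((P : Subgroup G) ⊓ Subgroup.centralizer (A : Set G) : Subgroup G) =
        (Nat.card A - 1) * Nat.card (P : Subgroup G) := by
  haveI : Fintype G := Fintype.ofFinite G
  set N := Subgroup.normalizer ((P : Subgroup G) : Set G) with hNdef
  have hNt : N ≠ ⊤ := h.normalizer_ne_top (h.exists_sylow_ne_bot P) (h.ne_top_of_pGroup P.2)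
  have hcard : ∀ H : Subgroup G, ((Finset.univ : Finset G).filter (· ∈ H)).card = Nat.card H := fun H => by
    rw [← Fintype.card_subtype, ← Nat.card_eq_fintype_card]
  set S := ((Finset.univ : Finset G).filter fun y => y ∈ N ∧ (orderOf y).Coprime p).erase 1 with hS
  refine ⟨S.card, ?_, ?_⟩
  · rw [hS, add_comm, Finset.card_erase_add_one (Finset.mem_filter.mpr ⟨Finset.mem_univ _, N.one_mem, by simp⟩),
      copIn, Nat.card_eq_fintype_card, Fintype.card_subtype]
  have hj : ∃ j, A.relIndex N = p ^ j := by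
    obtain ⟨j, hj⟩ := IsPGroup.iff_card.mp P.2
    refine ⟨j, Nat.eq_of_mul_eq_mul_left (Nat.card_pos (α := A)) ?_⟩
    rw [Core.card_mul_relIndex hb.le, h.card_normalizer hb, hj, mul_comm]
  set D := ((Finset.univ : Finset G).filter (· ∈ A)).erase 1 ×ˢ (Finset.univ : Finset G).filter (· ∈ (P : Subgroup G))
  have hD : ∀ z ∈ D, z.1 ≠ 1 ∧ z.1 ∈ A ∧ z.2 ∈ (P : Subgroup G) := by
    intro z hz
    simp only [D, Finset.mem_product, Finset.mem_erase, Finset.mem_filter, Finset.mem_univ, true_and] at hz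
    exact ⟨hz.1.1, hz.1.2, hz.2⟩
  have hmaps : ∀ z ∈ D, z.2 * z.1 * z.2⁻¹ ∈ S := by
    intro z hz
    obtain ⟨h1, h2, h3⟩ := hD z hz
    simp only [S, Finset.mem_erase, Finset.mem_filter, Finset.mem_univ, true_and]
    refine ⟨fun e => h1 (conj_eq_one_iff.mp e),
      N.mul_mem (N.mul_mem (Subgroup.le_normalizer h3) (hb.le h2)) (N.inv_mem (Subgroup.le_normalizer h3)), ?_⟩
    rw [show z.2 * z.1 * z.2⁻¹ = MulAut.conj z.2 z.1 from rfl, MulEquiv.orderOf_eq]
    exact hb.cop.coprime_dvd_left (Subgroup.orderOf_dvd_natCard A h2)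
  have hfib : ∀ y ∈ S, (D.filter fun z => z.2 * z.1 * z.2⁻¹ = y).card =
      Nat.card ((P : Subgroup G) ⊓ Subgroup.centralizer (A : Set G) : Subgroup G) := by
    intro y hy
    simp only [S, Finset.mem_erase, Finset.mem_filter, Finset.mem_univ, true_and] at hy
    obtain ⟨hy1, hyN, hyc⟩ := hy
    obtain ⟨m, hm, hmy⟩ := h.exists_conj_le_hall hNt hb.cop hb.le hj (Subgroup.zpowers_le.mpr hyN)
      (by rwa [Nat.card_zpowers])
    obtain ⟨r, hr, a, ha, hra⟩ := hb.sup _ (N.inv_mem hm)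
    set a₀ := r⁻¹ * y * r with ha₀
    have ha₀A : a₀ ∈ A := by
      have := A.mul_mem (A.mul_mem ha (hmy y (Subgroup.mem_zpowers y))) (A.inv_mem ha)
      rwa [show m = a⁻¹ * r⁻¹ by rw [← mul_inv_rev, ← hra, inv_inv],
        show a * (a⁻¹ * r⁻¹ * y * (a⁻¹ * r⁻¹)⁻¹) * a⁻¹ = r⁻¹ * y * r by group] at this
    have ha₀1 : a₀ ≠ 1 := fun e => hy1 (by rw [show y = r * a₀ * r⁻¹ by rw [ha₀]; group, e]; group)
    rw [← hcard]
    refine Finset.card_nbij' (fun z => r⁻¹ * z.2) (fun w => (a₀, r * w)) (fun z hz => ?_) (fun w hw => ?_)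
      (fun z hz => ?_) (fun w _ => ?_)
    all_goals simp only [Finset.mem_coe, Finset.mem_filter, Finset.mem_univ, true_and] at *
    · obtain ⟨hzD, hzy⟩ := hz
      obtain ⟨hz1, hzA, hzP⟩ := hD z hzD
      have hw : r⁻¹ * z.2 ∈ (P : Subgroup G) := Subgroup.mul_mem _ (Subgroup.inv_mem _ hr) hzP
      have e0 : r⁻¹ * z.2 * z.1 * (r⁻¹ * z.2)⁻¹ = a₀ := by rw [ha₀, ← hzy]; group
      have hza : z.1 = a₀ := by
        have h1 : r⁻¹ * z.2 * (z.1 * (r⁻¹ * z.2)⁻¹ * z.1⁻¹) = 1 := by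
          refine h.eq_one_of_mem_both hb (Subgroup.mul_mem _ hw
            ((Subgroup.mem_normalizer_iff.mp (hb.le hzA) _).mp (Subgroup.inv_mem _ hw))) ?_
          rw [← mul_assoc, ← mul_assoc, e0]
          exact A.mul_mem ha₀A (A.inv_mem hzA)
        rw [← mul_assoc, ← mul_assoc, e0, mul_inv_eq_one] at h1
        exact h1.symm
      rw [hza, mul_inv_eq_iff_eq_mul] at e0
      exact ⟨hw, Subgroup.mem_centralizer_iff.mpr (hb.fixed a₀ ha₀A ha₀1 _ hw e0.symm)⟩
    · refine ⟨?_, ?_⟩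
      · simp only [D, Finset.mem_product, Finset.mem_erase, Finset.mem_filter, Finset.mem_univ, true_and]
        exact ⟨⟨ha₀1, ha₀A⟩, Subgroup.mul_mem _ hr hw.1⟩
      · have := Subgroup.mem_centralizer_iff.mp hw.2 a₀ ha₀A
        calc r * w * a₀ * (r * w)⁻¹ = r * (w * a₀) * w⁻¹ * r⁻¹ := by group
          _ = r * a₀ * r⁻¹ := by rw [← this]; group
          _ = y := by rw [ha₀]; group
    · obtain ⟨hzD, hzy⟩ := hz
      obtain ⟨hz1, hzA, hzP⟩ := hD z hzD
      have hw : r⁻¹ * z.2 ∈ (P : Subgroup G) := Subgroup.mul_mem _ (Subgroup.inv_mem _ hr) hzP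
      have e0 : r⁻¹ * z.2 * z.1 * (r⁻¹ * z.2)⁻¹ = a₀ := by rw [ha₀, ← hzy]; group
      have h1 : r⁻¹ * z.2 * (z.1 * (r⁻¹ * z.2)⁻¹ * z.1⁻¹) = 1 := by
        refine h.eq_one_of_mem_both hb (Subgroup.mul_mem _ hw
          ((Subgroup.mem_normalizer_iff.mp (hb.le hzA) _).mp (Subgroup.inv_mem _ hw))) ?_
        rw [← mul_assoc, ← mul_assoc, e0]
        exact A.mul_mem ha₀A (A.inv_mem hzA)
      rw [← mul_assoc, ← mul_assoc, e0, mul_inv_eq_one] at h1
      exact Prod.ext h1 (by simp)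
    · simp
  have e := Finset.card_eq_sum_card_fiberwise hmaps
  rw [Finset.sum_congr rfl hfib, Finset.sum_const, smul_eq_mul, Finset.card_product,
    Finset.card_erase_of_mem (Finset.mem_filter.mpr ⟨Finset.mem_univ _, A.one_mem⟩), hcard, hcard] at e
  exact e.symm

/-- No minimal simple group satisfies `Hyp`. -/
theorem false : False := by
  obtain ⟨P⟩ := (inferInstance : Nonempty (Sylow p G))
  obtain ⟨A, hb⟩ := h.exists_borel P
  obtain ⟨R, K, hR, hK, htop⟩ := h.copIn_top_eq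
  obtain ⟨Y, hY, hYc⟩ := h.copIn_normalizer hb
  have key := h.copIn_top hb
  rw [htop, hY, h.card_normalizer hb] at key
  obtain ⟨α, hα⟩ := IsPGroup.iff_card.mp P.2
  obtain ⟨γ, hγ⟩ := IsPGroup.iff_card.mp
    (P.2.to_le (inf_le_left : (P : Subgroup G) ⊓ Subgroup.centralizer (A : Set G) ≤ _))
  rw [hα] at key hYc
  rw [hγ] at hYc
  have hlt : γ < α := by
    obtain ⟨a, ha, x, hx, hne⟩ := hb.moved
    have h1 : (P : Subgroup G) ⊓ Subgroup.centralizer (A : Set G) < (P : Subgroup G) :=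
      inf_le_left.lt_of_ne fun e => hne (Subgroup.mem_centralizer_iff.mp ((e.ge hx).2) a ha)
    have h2 : p ^ γ < p ^ α := by
      rw [← hγ, ← hα]
      by_contra hc
      exact h1.ne (Subgroup.eq_of_le_of_card_ge h1.le (not_lt.mp hc))
    exact (Nat.pow_lt_pow_iff_right h.prime.one_lt).mp h2
  have hNj : ∀ q, ∃ j, q ∈ R → Nat.card (Subgroup.normalizer (K q : Set G)) = Nat.card (K q) * p ^ j := by
    intro q
    by_cases hq : q ∈ R
    · obtain ⟨W, hs⟩ := h.max_setup (hK q hq)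
      obtain ⟨j, hj⟩ := h.relIndex_eq (hK q hq) (h.setup_ne_top hs) Subgroup.le_normalizer
      exact ⟨j, fun _ => by rw [← hj, Core.card_mul_relIndex Subgroup.le_normalizer]⟩
    · exact ⟨0, fun h' => absurd h' hq⟩
  choose j hj using hNj
  have hA : Nat.card A + 1 ≤ p := by
    obtain ⟨⟨f, hf⟩, hgen⟩ := hb.cyclic.exists_generator
    have h1 : orderOf (⟨f, hf⟩ : A) = Nat.card A := orderOf_eq_card_of_forall_mem_zpowers hgen
    rw [← Subgroup.orderOf_coe] at h1
    have h2 : Nat.card A ∣ p - 1 := h1 ▸ orderOf_dvd_of_pow_eq_one (h.exp A hb.cop f hf)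
    have := Nat.le_of_dvd (by have := h.five; omega) h2
    have := h.five
    omega
  refine arith R (fun q => Nat.card (K q)) j (fun q => (Subgroup.normalizer (K q : Set G)).index)
    (p := p) (e := Nat.card A) (α := α) (γ := γ) (g := Nat.card G) (Y := Y) h.five
    ((Subgroup.one_lt_card_iff_ne_bot A).mpr hb.ne) hA hlt ?_ (two_mul_card_lt h.five hR)
    (fun q hq => h.lt_card (hK q hq)) (fun q hq => ?_) key hYc
  · rw [← hα, ← h.card_normalizer hb]
    exact Subgroup.card_le_card_group _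
  · rw [← hj q hq, Subgroup.index_mul_card]

end Hyp

end Cfsg.Agent.Transfer.PPrimeExp
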