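import Cfsg.Agent.Transfer.PPrimeExp.Core
import Cfsg.Agent.Transfer.ZJFusion
import Cfsg.Agent.Dickson.PSolvable
import Cfsg.Agent.PLocal.ElemAb

/-!
Every maximal `p'`-subgroup is normal in the unique maximal subgroup containing it.
-/

set_option autoImplicit false
set_option linter.unusedSectionVars false

namespace Cfsg.Agent.Transfer.PPrimeExp

open Cfsg
open scoped commutatorElement Pointwise

variable {G : Type*} [Group G] [Finite G] {p : ℕ}

theorem mem_conj {g x : G} {H : Subgroup G} :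
    x ∈ H.map (MulAut.conj g).toMonoidHom ↔ g⁻¹ * x * g ∈ H := by
  constructor
  · rintro ⟨y, hy, rfl⟩; simpa [mul_assoc] using hy
  · exact fun hx => ⟨_, hx, by simp [mul_assoc]⟩

theorem conj_ne_top {g : G} {H : Subgroup G} (hH : H ≠ ⊤) : H.map (MulAut.conj g).toMonoidHom ≠ ⊤ :=
  fun e => hH (Subgroup.eq_top_of_card_eq H (by rw [← Coprime.card_map_conj H g, e, Subgroup.card_top]))

/-- A nontrivial subgroup normalized by a `p`-group `P` containing it meets the centre of `P`. -/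
theorem exists_central_of_normalized [hp : Fact p.Prime] {P W : Subgroup G} (hP : IsPGroup p P)
    (hWP : W ≤ P) (hn : P ≤ Subgroup.normalizer (W : Set G)) (hW : W ≠ ⊥) :
    ∃ z ∈ W, z ≠ 1 ∧ z ^ p = 1 ∧ z ∈ Subgroup.centralizer (P : Set G) := by
  haveI hN : (W.subgroupOf P).Normal := Subgroup.normal_subgroupOf_of_le_normalizer hn
  haveI : Nontrivial ↥(W.subgroupOf P) := (Subgroup.nontrivial_iff_ne_bot _).mpr fun e => hW (by
    rw [← Subgroup.map_subgroupOf_eq_of_le hWP, e, Subgroup.map_bot])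
  letI : MulAction P ↥(W.subgroupOf P) := MulAction.compHom _ (MulAut.conjNormal : P →* MulAut ↥(W.subgroupOf P))
  obtain ⟨k, hk⟩ := (hP.to_subgroup (W.subgroupOf P)).exists_card_eq
  have hd : p ∣ Nat.card ↥(W.subgroupOf P) := by
    rw [hk]
    refine dvd_pow_self p fun e => ?_
    rw [e, pow_zero] at hk
    exact absurd hk (Finite.one_lt_card (α := ↥(W.subgroupOf P))).ne'
  have h1 : (1 : ↥(W.subgroupOf P)) ∈ MulAction.fixedPoints P ↥(W.subgroupOf P) := fun u => by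
    show MulAut.conjNormal u (1 : ↥(W.subgroupOf P)) = 1
    exact map_one _
  obtain ⟨b, hb, hb1⟩ := hP.exists_fixed_point_of_prime_dvd_card_of_fixed_point _ hd h1
  have hbc : ((b : P) : G) ∈ Subgroup.centralizer (P : Set G) := Subgroup.mem_centralizer_iff.mpr fun x hx => by
    have h2 := congrArg (fun c : ↥(W.subgroupOf P) => ((c : P) : G)) (hb ⟨x, hx⟩)
    change ((MulAut.conjNormal (⟨x, hx⟩ : P) b : ↥(W.subgroupOf P)) : P).1 = _ at h2
    rw [MulAut.conjNormal_apply] at h2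
    simp only [Subgroup.coe_mul, Subgroup.coe_inv] at h2
    exact mul_inv_eq_iff_eq_mul.mp h2
  have hbW : ((b : P) : G) ∈ W := b.2
  have hb0 : ((b : P) : G) ≠ 1 := fun e => hb1 (Subtype.ext (Subtype.ext e)).symm
  obtain ⟨n, hn⟩ := (IsPGroup.iff_orderOf.mp hP) (b : P)
  rw [← Subgroup.orderOf_coe] at hn
  rcases n with _ | n
  · exact absurd (orderOf_eq_one_iff.mp hn) hb0
  refine ⟨((b : P) : G) ^ (p ^ n), W.pow_mem hbW _, fun e => ?_, ?_, Subgroup.pow_mem _ hbc _⟩
  · have := Nat.le_of_dvd (pow_pos hp.out.pos _) (hn ▸ orderOf_dvd_of_pow_eq_one e)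
    exact absurd this (not_le.mpr (Nat.pow_lt_pow_right hp.out.one_lt (by omega)))
  · rw [← pow_mul, ← pow_succ, ← hn, pow_orderOf_eq_one]

/-- Central elements of order `p` lie in the centre of the Thompson subgroup. -/
theorem mem_centerThompsonOf {P : Subgroup G} {z : G} (hz : z ∈ P) (hzp : z ^ p = 1)
    (hzc : z ∈ Subgroup.centralizer (P : Set G)) : z ∈ centerThompsonOf p P := by
  obtain ⟨A, hA⟩ := PLocal.exists_maxEA (p := p) (G := P)
  haveI := hA.1.1
  have hc : ∀ a : P, a * ⟨z, hz⟩ = ⟨z, hz⟩ * a := fun a =>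
    Subtype.ext (Subgroup.mem_centralizer_iff.mp hzc a a.2)
  let B : Subgroup P := A ⊔ Subgroup.zpowers ⟨z, hz⟩
  have hB : IsElementaryAbelian p B := by
    have hgen : B = Subgroup.closure ((A : Set P) ∪ {⟨z, hz⟩}) := by
      rw [Subgroup.closure_union, Subgroup.closure_eq, ← Subgroup.zpowers_eq_closure]
    have hcom : ∀ a ∈ B, ∀ b ∈ B, a * b = b * a := by
      have hBc : B ≤ Subgroup.centralizer (B : Set P) := by
        have h1 : B ≤ Subgroup.centralizer ((A : Set P) ∪ {⟨z, hz⟩}) := by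
          rw [hgen, Subgroup.closure_le]
          rintro x (hx | hx) <;> refine Subgroup.mem_centralizer_iff.mpr ?_ <;> rintro y (hy | hy)
          · exact commute_of_mem A hy hx
          · rw [Set.mem_singleton_iff] at hy; rw [hy]; exact (hc x).symm
          · rw [Set.mem_singleton_iff] at hx; rw [hx]; exact hc y
          · rw [Set.mem_singleton_iff] at hx hy; rw [hx, hy]
        rw [Subgroup.le_centralizer_iff]
        nth_rw 1 [hgen]
        rw [Subgroup.closure_le]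
        intro x hx
        exact Subgroup.mem_centralizer_iff.mpr fun y hy => (Subgroup.mem_centralizer_iff.mp (h1 hy) x hx).symm
      exact fun a ha b hb => (Subgroup.mem_centralizer_iff.mp (hBc ha) b hb).symm
    refine ⟨⟨⟨fun a b => Subtype.ext (hcom a a.2 b b.2)⟩⟩, fun a ha => ?_⟩
    rw [hgen] at ha
    have hsub : ∀ x ∈ Subgroup.closure ((A : Set P) ∪ {⟨z, hz⟩}), x ∈ B := fun x hx => hgen ▸ hx
    induction ha using Subgroup.closure_induction with
    | mem x hx =>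
      rcases hx with hx | hx
      · exact hA.1.2 x hx
      · rw [Set.mem_singleton_iff] at hx; rw [hx]; exact Subtype.ext hzp
    | one => exact one_pow p
    | mul x y hx hy ihx ihy =>
      rw [(show Commute x y from hcom x (hsub x hx) y (hsub y hy)).mul_pow, ihx, ihy, one_mul]
    | inv x _ ihx => rw [inv_pow, ihx, inv_one]
  have hBA : (⟨z, hz⟩ : P) ∈ A := by
    rw [Subgroup.eq_of_le_of_card_ge (le_sup_left : A ≤ B) (hA.2 B hB)]
    exact Subgroup.mem_sup_right (Subgroup.mem_zpowers _)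
  refine ⟨⟨⟨z, hz⟩, PLocal.le_thompsonSubgroup hA hBA, rfl⟩, ?_⟩
  exact Subgroup.centralizer_le (Subgroup.map_subtype_le _) hzc

/-- A `p`-element normalizing a cyclic group of exponent dividing `p - 1` centralizes it. -/
theorem conj_eq_of_isCyclic [hp : Fact p.Prime] {X : Subgroup G} (hX : IsCyclic X)
    (hexp : ∀ x ∈ X, x ^ (p - 1) = 1) {v : G} (hv : v ∈ Subgroup.normalizer (X : Set G)) {k : ℕ}
    (hk : orderOf v = p ^ k) : ∀ x ∈ X, v * x * v⁻¹ = x := by
  obtain ⟨⟨f, hf⟩, hgen⟩ := hX.exists_generator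
  obtain ⟨i, hi⟩ := Subgroup.mem_zpowers_iff.mp (hgen ⟨v * f * v⁻¹, (Subgroup.mem_normalizer_iff.mp hv f).mp hf⟩)
  have hi' : v * f * v⁻¹ = f ^ i := (congrArg Subtype.val hi).symm
  have hiter : ∀ n : ℕ, v ^ n * f * (v ^ n)⁻¹ = f ^ (i ^ n) := by
    intro n
    induction n with
    | zero => simp
    | succ n ih =>
      calc v ^ (n + 1) * f * (v ^ (n + 1))⁻¹ = v * (v ^ n * f * (v ^ n)⁻¹) * v⁻¹ := by rw [pow_succ']; group
        _ = (v * f * v⁻¹) ^ (i ^ n) := by rw [ih, conj_zpow]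
        _ = f ^ (i ^ (n + 1)) := by rw [hi', ← zpow_mul, pow_succ']
  set N := orderOf f with hNdef
  have h1 : ((i : ZMod N)) ^ (p ^ k) = 1 := by
    have h2 := hiter (p ^ k)
    rw [← hk, pow_orderOf_eq_one, one_mul, inv_one, mul_one, hk] at h2
    have h3 : f ^ (i ^ (p ^ k) - 1 : ℤ) = 1 := by rw [zpow_sub, zpow_one, ← h2, mul_inv_cancel]
    have h4 := orderOf_dvd_iff_zpow_eq_one.mpr h3
    rw [← ZMod.intCast_zmod_eq_zero_iff_dvd, Int.cast_sub, Int.cast_one, Int.cast_pow, sub_eq_zero] at h4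
    exact h4
  have hp5 : 0 < p - 1 := by have := hp.out.two_le; omega
  haveI : NeZero N := ⟨(orderOf_pos f).ne'⟩
  have h5 : (i : ZMod N) = 1 := by
    obtain ⟨u, hu⟩ := IsUnit.of_pow_eq_one h1 (pow_ne_zero k hp.out.ne_zero)
    have h6 : u ^ (p ^ k) = 1 := Units.ext (by rw [Units.val_pow_eq_pow_val, hu, h1, Units.val_one])
    have h7 : orderOf u ∣ N.totient := by
      rw [← ZMod.card_units_eq_totient, ← Nat.card_eq_fintype_card]
      exact orderOf_dvd_natCard u
    have hN : N ≤ p - 1 := Nat.le_of_dvd hp5 (orderOf_dvd_of_pow_eq_one (hexp f hf))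
    have h8 : (N.totient).Coprime (p ^ k) := by
      refine (Nat.Coprime.pow_right k ?_)
      rw [Nat.coprime_comm, hp.out.coprime_iff_not_dvd]
      intro hd
      have := Nat.le_of_dvd (Nat.totient_pos.mpr (orderOf_pos f)) hd
      have h10 : (orderOf f).totient ≤ orderOf f := Nat.totient_le _
      simp only [hNdef] at *
      omega
    have h9 : u = 1 := orderOf_eq_one_iff.mp (Nat.eq_one_of_dvd_coprimes h8 h7 (orderOf_dvd_of_pow_eq_one h6))
    rw [← hu, h9, Units.val_one]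
  have hfix : v * f * v⁻¹ = f := by
    have h10 : f ^ (i - 1) = 1 := orderOf_dvd_iff_zpow_eq_one.mp (by
      rw [← ZMod.intCast_zmod_eq_zero_iff_dvd, Int.cast_sub, Int.cast_one, h5, sub_self])
    rw [zpow_sub, zpow_one, mul_inv_eq_one] at h10
    rw [hi', h10]
  intro x hx
  obtain ⟨j, hj⟩ := Subgroup.mem_zpowers_iff.mp (hgen ⟨x, hx⟩)
  have hj' : x = f ^ j := (congrArg Subtype.val hj).symm
  rw [hj', ← conj_zpow, hfix]

/-- Commutators centralize a cyclic subgroup normalized by both factors. -/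
theorem commutator_le_centralizer_of_cyclic {M X : Subgroup G} (hX : IsCyclic X)
    (hM : M ≤ Subgroup.normalizer (X : Set G)) : ⁅M, M⁆ ≤ Subgroup.centralizer (X : Set G) := by
  obtain ⟨⟨f, hf⟩, hgen⟩ := hX.exists_generator
  rw [Subgroup.commutator_le]
  intro a ha b hb
  have hex : ∀ m ∈ M, ∃ i : ℤ, m * f * m⁻¹ = f ^ i := fun m hm => by
    obtain ⟨i, hi⟩ := Subgroup.mem_zpowers_iff.mp (hgen ⟨m * f * m⁻¹, (Subgroup.mem_normalizer_iff.mp (hM hm) f).mp hf⟩)
    exact ⟨i, (congrArg Subtype.val hi).symm⟩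
  obtain ⟨i, hi⟩ := hex a ha
  obtain ⟨j, hj⟩ := hex b hb
  have e1 : a * b * f * (a * b)⁻¹ = f ^ (i * j) := by
    calc a * b * f * (a * b)⁻¹ = a * (b * f * b⁻¹) * a⁻¹ := by group
      _ = f ^ (i * j) := by rw [hj, ← conj_zpow, hi, zpow_mul]
  have e2 : b * a * f * (b * a)⁻¹ = f ^ (i * j) := by
    calc b * a * f * (b * a)⁻¹ = b * (a * f * a⁻¹) * b⁻¹ := by group
      _ = f ^ (i * j) := by rw [hi, ← conj_zpow, hj, ← zpow_mul, mul_comm]
  have hw : ∀ x ∈ X, (a * b) * x * (a * b)⁻¹ = (b * a) * x * (b * a)⁻¹ := by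
    intro x hx
    obtain ⟨l, hl⟩ := Subgroup.mem_zpowers_iff.mp (hgen ⟨x, hx⟩)
    rw [show x = f ^ l from (congrArg Subtype.val hl).symm, ← conj_zpow, ← conj_zpow, e1, e2]
  refine Subgroup.mem_centralizer_iff.mpr fun x hx => ?_
  have hy : (b * a)⁻¹ * x * (b * a) ∈ X :=
    (Subgroup.mem_normalizer_iff''.mp (Subgroup.mul_mem _ (hM hb) (hM ha)) x).mp hx
  have := hw _ hy
  rw [show b * a * ((b * a)⁻¹ * x * (b * a)) * (b * a)⁻¹ = x by group] at this
  calc x * ⁅a, b⁆ = (a * b * ((b * a)⁻¹ * x * (b * a)) * (a * b)⁻¹) * ⁅a, b⁆ := by rw [this]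
    _ = ⁅a, b⁆ * x := by rw [commutatorElement_def]; group

/-- `K`, its maximal invariant `p`-subgroup `W`, and the local subgroup `M = W N(K)`. -/
structure Setup (p : ℕ) (K W M : Subgroup G) : Prop where
  isMax : IsMaxPrime p K
  pGroup : IsPGroup p W
  le_norm : K ≤ Subgroup.normalizer (W : Set G)
  max : ∀ R : Subgroup G, IsPGroup p R → K ≤ Subgroup.normalizer (R : Set G) → R ≤ W
  eq : M = W ⊔ Subgroup.normalizer (K : Set G)

namespace Hyp

variable (h : Hyp p G)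
include h

theorem exists_setup {K : Subgroup G} (hK : IsMaxPrime p K) : ∃ W M : Subgroup G, Setup p K W M := by
  obtain ⟨W, -, hW⟩ := exists_maximal_inv p K (IsPGroup.of_bot (p := p) (G := G))
    (le_top.trans_eq (Subgroup.normalizer_eq_top (⊥ : Subgroup G)).symm)
  refine ⟨W, _, hK, hW.1.1, hW.1.2, fun R hR hKR => ?_, rfl⟩
  obtain ⟨W', hRW, hW'⟩ := exists_maximal_inv p K hR hKR
  exact (h.maximal_inv_unique hK hW' hW) ▸ hRW

variable {K W M : Subgroup G}

theorem ne_top (hs : Setup p K W M) : K ≠ ⊤ := fun e => by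
  haveI := h.abelian K hs.isMax.2.1
  exact h.simple.2.1 ⟨⟨fun a b => commute_of_mem K (e ▸ Subgroup.mem_top a) (e ▸ Subgroup.mem_top b)⟩⟩

theorem le_setup (hs : Setup p K W M) : K ≤ M := hs.eq ▸ Subgroup.le_normalizer.trans le_sup_right

theorem M_le_normalizer (hs : Setup p K W M) : M ≤ Subgroup.normalizer (W : Set G) := by
  rw [hs.eq]
  refine sup_le Subgroup.le_normalizer fun g hg => Coprime.mem_normalizer_of_conj_mem fun w hw => ?_
  refine hs.max _ (hs.pGroup.map (MulAut.conj g).toMonoidHom) ?_ ⟨w, hw, rfl⟩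
  intro k hk
  refine Coprime.mem_normalizer_of_conj_mem fun x hx => ?_
  rw [mem_conj] at hx ⊢
  have hk' : g⁻¹ * k * g ∈ K := (Subgroup.mem_normalizer_iff''.mp hg k).mp hk
  have := (Subgroup.mem_normalizer_iff.mp (hs.le_norm hk') _).mp hx
  rwa [show g⁻¹ * k * g * (g⁻¹ * x * g) * (g⁻¹ * k * g)⁻¹ = g⁻¹ * (k * x * k⁻¹) * g by group] at this

theorem setup_ne_top (hs : Setup p K W M) : M ≠ ⊤ := by
  by_cases hW : W = ⊥
  · rw [hs.eq, hW, bot_sup_eq]
    exact h.normalizer_ne_top hs.isMax.1 (h.ne_top hs)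
  · exact fun e => h.normalizer_ne_top hW (h.ne_top_of_pGroup hs.pGroup)
      (top_le_iff.mp (e.symm.trans_le (h.M_le_normalizer hs)))

theorem overgroup_le (hs : Setup p K W M) {H : Subgroup G} (hH : H ≠ ⊤) (hKH : K ≤ H) : H ≤ M := by
  intro x hx
  obtain ⟨r, hr, n, -, hn, rfl⟩ := h.exists_mul hH hs.isMax.2.1 hKH (h.relIndex_eq hs.isMax hH hKH) hx
  rw [hs.eq]
  exact Subgroup.mul_mem_sup (hs.max _ (isPGroup_opOf H) (hKH.trans (le_normalizer_opOf H)) hr) hn

theorem centralizer_le (hs : Setup p K W M) {a : G} (ha : a ∈ K) (ha1 : a ≠ 1) :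
    Subgroup.centralizer ({a} : Set G) ≤ M := by
  haveI := h.abelian K hs.isMax.2.1
  refine h.overgroup_le hs (h.centralizer_singleton_ne_top ha1) fun k hk => Subgroup.mem_centralizer_iff.mpr fun y hy => ?_
  rw [Set.mem_singleton_iff] at hy; rw [hy]
  exact commute_of_mem K ha hk

theorem mem_of_map_le (hs : Setup p K W M) {g : G} (hg : K.map (MulAut.conj g).toMonoidHom ≤ M) : g ∈ M := by
  have h1 : M.map (MulAut.conj g⁻¹).toMonoidHom ≤ M := h.overgroup_le hs (conj_ne_top (h.setup_ne_top hs))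
    fun k hk => mem_conj.mpr (hg ⟨k, hk, by simp⟩)
  have h2 : g⁻¹ ∈ Subgroup.normalizer (M : Set G) := Coprime.mem_normalizer_of_conj_mem fun y hy =>
    h1 ⟨y, hy, rfl⟩
  have hne : Subgroup.normalizer (M : Set G) ≠ ⊤ := h.normalizer_ne_top
    (fun e => hs.isMax.1 (le_bot_iff.mp (e ▸ h.le_setup hs))) (h.setup_ne_top hs)
  exact inv_inv g ▸ M.inv_mem (h.overgroup_le hs hne ((h.le_setup hs).trans Subgroup.le_normalizer) h2)

theorem exists_conj_le_K (hs : Setup p K W M) {L : Subgroup G} (hL : L ≤ M) (hLc : (Nat.card L).Coprime p) :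
    ∃ m ∈ M, ∀ x ∈ L, m * x * m⁻¹ ∈ K := by
  haveI := Fact.mk h.prime
  haveI := h.solvable (h.setup_ne_top hs)
  have hKM := h.le_setup hs
  obtain ⟨j, hj⟩ := h.relIndex_eq hs.isMax (h.setup_ne_top hs) hKM
  have hall : IsPiHall {p}ᶜ (K.subgroupOf M) := by
    rw [Core.isPiHall_iff]
    refine ⟨(Core.isPiNat_compl_singleton_iff_coprime h.prime).mpr
      (by rw [Nat.card_congr (Subgroup.subgroupOfEquivOfLe hKM).toEquiv]; exact hs.isMax.2.1), ?_⟩
    intro q hq hd
    have := (Nat.prime_dvd_prime_iff_eq hq h.prime).mp (hq.dvd_of_dvd_pow (hd.trans (dvd_of_eq hj)))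
    simp [this]
  obtain ⟨g, hg⟩ := Core.exists_le_conj_smul_of_isPiHall Core.isPiSeparable_of_isSolvable
    Core.hallSolvable_of_isSolvable hall (K := L.subgroupOf M)
    ((Core.isPiNat_compl_singleton_iff_coprime h.prime).mpr
      (by rwa [Nat.card_congr (Subgroup.subgroupOfEquivOfLe hL).toEquiv]))
  refine ⟨((g : G))⁻¹, M.inv_mem g.2, fun x hx => ?_⟩
  have h3 : (⟨x, hL hx⟩ : M) ∈ MulAut.conj g • K.subgroupOf M := hg hx
  rw [Subgroup.mem_pointwise_smul_iff_inv_smul_mem, ← map_inv, MulAut.smul_def, MulAut.conj_apply] at h3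
  simpa [Subgroup.mem_subgroupOf] using h3

/-- Centralizers of `p'`-elements of `M` lie in `M` and contain a conjugate of `K` by an element of `M`. -/
theorem centralizer_le_of_mem (hs : Setup p K W M) {y : G} (hy : y ∈ M) (hy1 : y ≠ 1)
    (hyp : (orderOf y).Coprime p) : Subgroup.centralizer ({y} : Set G) ≤ M ∧
      ∃ m ∈ M, K.map (MulAut.conj m).toMonoidHom ≤ Subgroup.centralizer ({y} : Set G) := by
  haveI := h.abelian K hs.isMax.2.1
  obtain ⟨m, hm, hmy⟩ := h.exists_conj_le_K hs (Subgroup.zpowers_le.mpr hy) (by rwa [Nat.card_zpowers])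
  have ha := hmy y (Subgroup.mem_zpowers y)
  have hc := h.centralizer_le hs ha (fun e => hy1 (conj_eq_one_iff.mp e))
  refine ⟨fun c hcy => ?_, m⁻¹, M.inv_mem hm, ?_⟩
  · have h1 : m * c * m⁻¹ ∈ M := hc (Subgroup.mem_centralizer_iff.mpr fun z hz => by
      rw [Set.mem_singleton_iff] at hz; rw [hz]
      calc m * y * m⁻¹ * (m * c * m⁻¹) = m * (y * c) * m⁻¹ := by group
        _ = m * c * m⁻¹ * (m * y * m⁻¹) := by rw [Subgroup.mem_centralizer_iff.mp hcy y rfl]; group)
    have h2 := M.mul_mem (M.mul_mem (M.inv_mem hm) h1) hm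
    rwa [show m⁻¹ * (m * c * m⁻¹) * m = c by group] at h2
  · rintro _ ⟨k, hk, rfl⟩
    refine Subgroup.mem_centralizer_iff.mpr fun z hz => ?_
    rw [Set.mem_singleton_iff] at hz; rw [hz]
    show y * (m⁻¹ * k * m⁻¹⁻¹) = m⁻¹ * k * m⁻¹⁻¹ * y
    calc y * (m⁻¹ * k * m⁻¹⁻¹) = m⁻¹ * (m * y * m⁻¹ * k) * m := by group
      _ = m⁻¹ * k * m⁻¹⁻¹ * y := by rw [commute_of_mem K ha hk]; group

/-- A proper subgroup containing a noncyclic `p'`-subgroup of `M` lies in `M`. -/
theorem noncyclic_le (hs : Setup p K W M) {B H : Subgroup G} (hBM : B ≤ M) (hBc : (Nat.card B).Coprime p)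
    (hB : ¬ IsCyclic B) (hH : H ≠ ⊤) (hBH : B ≤ H) : H ≤ M := by
  haveI := Fact.mk h.prime
  haveI := h.abelian B hBc
  obtain ⟨A, hBA, hAH, hA, hj⟩ := h.exists_hall hH hBc hBH
  haveI := h.abelian A hA
  obtain ⟨b, hb, hb1⟩ : ∃ b ∈ B, b ≠ 1 := by
    by_contra hcon; push_neg at hcon
    have hsub : ∀ x : B, x = 1 := fun x => Subtype.ext (hcon x x.2)
    exact hB ⟨⟨1, fun x => ⟨0, by rw [hsub x]; simp⟩⟩⟩
  have hord : ∀ b ∈ B, (orderOf b).Coprime p := fun b hb =>
    hBc.coprime_dvd_left (Subgroup.orderOf_dvd_natCard B hb)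
  obtain ⟨hcb, m, hm, hmK⟩ := h.centralizer_le_of_mem hs (hBM hb) hb1 (hord b hb)
  have hAb : A ≤ Subgroup.centralizer ({b} : Set G) := fun a ha => Subgroup.mem_centralizer_iff.mpr fun z hz => by
    rw [Set.mem_singleton_iff] at hz; rw [hz]; exact commute_of_mem A (hBA hb) ha
  obtain ⟨m₁, hm₁, hm₁A⟩ := h.exists_conj_le_K hs (hAb.trans hcb) hA
  haveI := h.abelian K hs.isMax.2.1
  intro x hx
  obtain ⟨r, hr, n, -, hn, rfl⟩ := h.exists_mul hH hA hAH hj hx
  refine M.mul_mem ?_ ?_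
  · have hO := Coprime.eq_centralizerJoin hB (hBH.trans (le_normalizer_opOf (p := p) H)) (by
      obtain ⟨i, hi⟩ := IsPGroup.iff_card.mp (isPGroup_opOf (p := p) H)
      rw [hi]; exact hBc.pow_right i)
    refine (iSup_le (a := M) fun e => inf_le_right.trans ?_) (hO.symm ▸ hr)
    exact (h.centralizer_le_of_mem hs (hBM e.2.1) e.2.2 (hord e.1 e.2.1)).1
  · have hle : (K.map (MulAut.conj (n * m₁⁻¹)).toMonoidHom) ≤ M := by
      rintro _ ⟨k, hk, rfl⟩
      refine hcb (Subgroup.mem_centralizer_iff.mpr fun z hz => ?_)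
      rw [Set.mem_singleton_iff] at hz; rw [hz]
      have hb' : n⁻¹ * b * n ∈ A := (Subgroup.mem_normalizer_iff''.mp hn b).mp (hBA hb)
      show b * (n * m₁⁻¹ * k * (n * m₁⁻¹)⁻¹) = n * m₁⁻¹ * k * (n * m₁⁻¹)⁻¹ * b
      calc b * (n * m₁⁻¹ * k * (n * m₁⁻¹)⁻¹) = n * m₁⁻¹ * (m₁ * (n⁻¹ * b * n) * m₁⁻¹ * k) * (n * m₁⁻¹)⁻¹ := by group
        _ = n * m₁⁻¹ * (k * (m₁ * (n⁻¹ * b * n) * m₁⁻¹)) * (n * m₁⁻¹)⁻¹ := by rw [commute_of_mem K (hm₁A _ hb') hk]
        _ = n * m₁⁻¹ * k * (n * m₁⁻¹)⁻¹ * b := by group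
    have := M.mul_mem (h.mem_of_map_le hs hle) hm₁
    rwa [inv_mul_cancel_right] at this

theorem hns : ¬ Dickson.HasSL2Section p (⊤ : Subgroup G) := by
  haveI := Fact.mk h.prime
  refine Dickson.no_section_of_abelian_sylow_two (by have := h.five; omega) fun T => ?_
  exact h.abelian _ (h.sylow_coprime (by have := h.five; omega) T.2)

/-- `K ≤ [M, M]`, by transfer. -/
theorem le_commutator (hs : Setup p K W M) : K ≤ ⁅M, M⁆ := by
  haveI := h.abelian K hs.isMax.2.1
  refine Core.le_of_forall_exists_sylow_le fun q hq => ?_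
  haveI := Fact.mk hq
  obtain ⟨S⟩ := (inferInstance : Nonempty (Sylow q K))
  refine ⟨S, ?_⟩
  set Q₀ := (S : Subgroup K).map K.subtype
  by_cases hQ0 : Q₀ = ⊥
  · rw [hQ0]; exact bot_le
  have hQK : Q₀ ≤ K := Subgroup.map_subtype_le _
  obtain ⟨a, ha, ha1⟩ : ∃ a ∈ Q₀, a ≠ 1 := by
    by_contra hcon; push_neg at hcon
    exact hQ0 ((Subgroup.eq_bot_iff_forall _).mpr hcon)
  have hQp : IsPGroup q Q₀ := S.2.map _
  obtain ⟨Q, hQ⟩ := hQp.exists_le_sylow
  have hqp : q ≠ p := by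
    intro e
    obtain ⟨n, hn⟩ := IsPGroup.iff_card.mp hQp
    rcases n with _ | n
    · exact hQ0 (Subgroup.eq_bot_of_card_eq _ (by rw [hn, pow_zero]))
    · have := (hs.isMax.2.1.coprime_dvd_left (Subgroup.card_dvd_of_le hQK))
      rw [hn, e] at this
      exact h.prime.ne_one (Nat.eq_one_of_dvd_coprimes this (dvd_pow_self p n.succ_ne_zero) dvd_rfl)
  haveI := h.abelian _ (h.sylow_coprime hqp Q.2)
  have hQM : (Q : Subgroup G) ≤ M := fun x hx => h.centralizer_le hs (hQK ha) ha1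
    (Subgroup.mem_centralizer_iff.mpr fun z hz => by
      rw [Set.mem_singleton_iff] at hz; rw [hz]; exact commute_of_mem (Q : Subgroup G) (hQ ha) hx)
  have hNQ : Subgroup.normalizer ((Q : Subgroup G) : Set G) ≤ M := by
    intro n hn
    obtain ⟨m, hm, hmK⟩ := h.exists_conj_le_K hs hQM (h.sylow_coprime hqp Q.2)
    have ha' : n * a * n⁻¹ ∈ (Q : Subgroup G) := (Subgroup.mem_normalizer_iff.mp hn a).mp (hQ ha)
    have hc := h.centralizer_le hs (hmK _ ha') (fun e => ha1 (conj_eq_one_iff.mp (conj_eq_one_iff.mp e)))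
    have h1 : m * n ∈ M := h.mem_of_map_le hs (by
      rintro _ ⟨k, hk, rfl⟩
      refine hc (Subgroup.mem_centralizer_iff.mpr fun z hz => ?_)
      rw [Set.mem_singleton_iff] at hz; rw [hz]
      show m * (n * a * n⁻¹) * m⁻¹ * (m * n * k * (m * n)⁻¹) = m * n * k * (m * n)⁻¹ * (m * (n * a * n⁻¹) * m⁻¹)
      calc m * (n * a * n⁻¹) * m⁻¹ * (m * n * k * (m * n)⁻¹) = m * n * (a * k) * (m * n)⁻¹ := by group
        _ = m * n * k * (m * n)⁻¹ * (m * (n * a * n⁻¹) * m⁻¹) := by rw [commute_of_mem K (hQK ha) hk]; group)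
    simpa [mul_assoc] using M.mul_mem (M.inv_mem hm) h1
  have hres : pResidual q G = ⊤ := (h.normal_eq Transfer.pResidual_normal).resolve_left fun e => by
    have h1 := Transfer.isPGroup_quotient_pResidual (G := G) (p := q)
    exact h.top_not_pGroup (r := q) (h1.of_equiv ((QuotientGroup.quotientMulEquivOfEq e).trans QuotientGroup.quotientBot))
  calc Q₀ ≤ (Q : Subgroup G) := hQ
    _ = (Q : Subgroup G).focalSubgroup := (Transfer.focalSubgroup_eq_of_pResidual_eq_top Q hres).symm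
    _ ≤ ⁅M, M⁆ := Transfer.focalSubgroup_le_of_forall fun x hx g hgx => by
      have hle : (Q : Subgroup G) ≤ Subgroup.centralizer ((Q : Subgroup G) : Set G) := fun u hu =>
        Subgroup.mem_centralizer_iff.mpr fun v hv => commute_of_mem (Q : Subgroup G) hv hu
      obtain ⟨n, hn, e⟩ := Transfer.burnside_fusion_elem Q (hle hx) (hle hgx)
      rw [← e, show x⁻¹ * (n * x * n⁻¹) = ⁅x⁻¹, n⁆ by rw [commutatorElement_def]; group]
      exact Subgroup.commutator_mem_commutator (M.inv_mem (hQM hx)) (hNQ hn)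

/-- If `N(Z(J(P))) ≤ M` for a Sylow `p`-subgroup `P` of `M`, transfer gives a contradiction. -/
theorem false_of_normalizer_le (hs : Setup p K W M) (S : Sylow p M)
    (hN : Subgroup.normalizer (centerThompsonOf p ((S : Subgroup M).map M.subtype) : Set G) ≤ M) : False := by
  haveI := Fact.mk h.prime
  haveI := h.solvable (h.setup_ne_top hs)
  set P₀ := (S : Subgroup M).map M.subtype with hP₀
  have hP₀M : P₀ ≤ M := Subgroup.map_subtype_le _
  obtain ⟨P, hP⟩ := (S.2.map M.subtype : IsPGroup p P₀).exists_le_sylow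
  have heq : P₀ = (P : Subgroup G) := by
    refine hP.eq_of_not_lt fun hlt => ?_
    have h1 := Transfer.lt_inf_normalizer P.2 hlt
    have hle : (P : Subgroup G) ⊓ Subgroup.normalizer (P₀ : Set G) ≤ M :=
      inf_le_right.trans ((ZJ.normalizer_le_ct p P₀).trans hN)
    have h2 : IsPGroup p (((P : Subgroup G) ⊓ Subgroup.normalizer (P₀ : Set G)).subgroupOf M) :=
      (P.2.to_le inf_le_left).comap_subtype
    have h3 := S.3 h2 fun x hx => h1.le ⟨x, hx, rfl⟩
    refine h1.ne (le_antisymm h1.le fun x hx => ⟨⟨x, hle hx⟩, ?_, rfl⟩)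
    rw [← h3]; exact hx
  have hres : pResidual p G = ⊤ := (h.normal_eq Transfer.pResidual_normal).resolve_left fun e => by
    have h1 := Transfer.isPGroup_quotient_pResidual (G := G) (p := p)
    exact h.top_not_pGroup (r := p) (h1.of_equiv ((QuotientGroup.quotientMulEquivOfEq e).trans QuotientGroup.quotientBot))
  have hPc : (P : Subgroup G) ≤ ⁅M, M⁆ := by
    conv_lhs => rw [← Transfer.focalSubgroup_eq_of_pResidual_eq_top P hres]
    refine Transfer.focalSubgroup_le_of_forall fun x hx g hgx => ?_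
    obtain ⟨n, hn, hna⟩ := ZJ.agreesIn (by have := h.five; omega) h.hns P (A := Subgroup.zpowers x) (g := g)
      (Subgroup.zpowers_le.mpr hx) (by rw [MonoidHom.map_zpowers, Subgroup.zpowers_le]; exact hgx)
    have hnM : n ∈ M := hN (by rw [heq]; exact hn)
    rw [← hna x (Subgroup.mem_zpowers x), show x⁻¹ * (n * x * n⁻¹) = ⁅x⁻¹, n⁆ by rw [commutatorElement_def]; group]
    exact Subgroup.commutator_mem_commutator (M.inv_mem (hP₀M (heq ▸ hx))) hnM
  -- `M` is then perfect, which is impossible for a solvable group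
  have hMM : M ≤ ⁅M, M⁆ := by
    have hKM := h.le_setup hs
    obtain ⟨j, hj⟩ := h.relIndex_eq hs.isMax (h.setup_ne_top hs) hKM
    have h1 : P₀ ⊔ K ≤ ⁅M, M⁆ := sup_le (heq ▸ hPc) (h.le_commutator hs)
    have h2 : (P₀ ⊔ K).relIndex M = 1 := by
      refine Nat.eq_one_of_dvd_coprimes ?_ (Subgroup.relIndex_dvd_of_le_left M le_sup_left)
        ((Subgroup.relIndex_dvd_of_le_left M le_sup_right).trans (dvd_of_eq hj))
      refine Nat.Coprime.pow_right j ?_
      rw [Nat.coprime_comm, h.prime.coprime_iff_not_dvd, hP₀, Subgroup.relIndex, Subgroup.subgroupOf,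
        Subgroup.comap_map_eq_self_of_injective M.subtype_injective]
      exact S.not_dvd_index
    exact (Subgroup.relIndex_eq_one.mp h2).trans h1
  have hMc : commutator M = ⊤ := by
    refine Subgroup.map_injective M.subtype_injective ?_
    rw [commutator_def, Subgroup.map_commutator, ← MonoidHom.range_eq_map, Subgroup.range_subtype]
    exact le_antisymm (Subgroup.commutator_le_self M) hMM
  have htriv : Nontrivial M := (Subgroup.nontrivial_iff_ne_bot M).mpr
    fun e => hs.isMax.1 (le_bot_iff.mp (e ▸ h.le_setup hs))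
  exact (IsSolvable.commutator_lt_top_of_nontrivial M).ne hMc

/-- `M` normalizes `K`. -/
theorem setup_eq (hs : Setup p K W M) : M = Subgroup.normalizer (K : Set G) := by
  haveI := Fact.mk h.prime
  haveI hMs := h.solvable (h.setup_ne_top hs)
  haveI := h.abelian K hs.isMax.2.1
  have hKM := h.le_setup hs
  suffices hc : W ≤ Subgroup.centralizer (K : Set G) by
    refine le_antisymm ?_ (hs.eq ▸ le_sup_right)
    rw [hs.eq]
    exact sup_le (hc.trans (Subgroup.centralizer_le_normalizer _)) le_rfl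
  by_contra hWK
  obtain ⟨S, hS⟩ : ∃ S : Sylow p M, W.subgroupOf M ≤ S := (hs.pGroup.comap_subtype (K := M)).exists_le_sylow
  set P := (S : Subgroup M).map M.subtype with hP
  have hPM : P ≤ M := Subgroup.map_subtype_le _
  have hPp : IsPGroup p P := S.2.map _
  have hWM : W ≤ M := hs.eq ▸ le_sup_left
  have hWP : W ≤ P := fun w hw => ⟨⟨w, hWM hw⟩, hS hw, rfl⟩
  set Z := centerThompsonOf p P with hZ
  have hZP : Z ≤ P := ZJ.ct_le p P
  apply h.false_of_normalizer_le hs S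
  change Subgroup.normalizer (Z : Set G) ≤ M
  have hW1 : W ≠ ⊥ := fun e => hWK (e ▸ bot_le)
  obtain ⟨z, hzW, hz1, hzp, hzc⟩ := exists_central_of_normalized hPp hWP (hPM.trans (h.M_le_normalizer hs)) hW1
  have hzZ : z ∈ Z := mem_centerThompsonOf (hWP hzW) hzp hzc
  have hNZ : Subgroup.normalizer (Z : Set G) ≠ ⊤ :=
    h.normalizer_ne_top (fun e => hz1 (Subgroup.mem_bot.mp (e ▸ hzZ))) (h.ne_top_of_pGroup (hPp.to_le hZP))
  by_contra hY
  have hKZ : ¬ K ≤ Subgroup.normalizer (Z : Set G) := fun e => hY (h.overgroup_le hs hNZ e)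
  -- the `p'`-core of `M`
  set F₀ := (pPrimeCore p M).map M.subtype with hF₀
  haveI : (pPrimeCore p M).Normal := Subgroup.sSup_normal _ (fun _ h => h.1)
  have hFM : F₀ ≤ M := Subgroup.map_subtype_le _
  have hMF : M ≤ Subgroup.normalizer (F₀ : Set G) := fun x hx => Coprime.mem_normalizer_of_conj_mem (by
    rintro _ ⟨y, hy, rfl⟩
    exact ⟨⟨x, hx⟩ * y * ⟨x, hx⟩⁻¹, (inferInstance : (pPrimeCore p M).Normal).conj_mem y hy _, rfl⟩)
  have hFc : (Nat.card F₀).Coprime p := by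
    rw [hF₀, Subgroup.card_map_of_injective M.subtype_injective]; exact Core.card_pPrimeCore_coprime p M
  have hFK : F₀ ≤ K := by
    have hc : (Nat.card (K ⊔ F₀ : Subgroup G)).Coprime p := by
      have e := PLocal.card_sup_mul_card_inf (A := K) (B := F₀) (hKM.trans hMF)
      exact Nat.Coprime.coprime_dvd_left (Dvd.intro _ e) (hs.isMax.2.1.mul_left hFc)
    exact le_sup_right.trans (hs.isMax.2.2 _ hc le_sup_left).le
  haveI := h.abelian F₀ hFc
  have hFW : ∀ f ∈ F₀, ∀ w ∈ W, f * w = w * f := fun f hf w hw => by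
    have h1 : f * w * f⁻¹ * w⁻¹ ∈ W :=
      W.mul_mem ((Subgroup.mem_normalizer_iff.mp (h.M_le_normalizer hs (hFM hf)) w).mp hw) (W.inv_mem hw)
    have h2 : f * w * f⁻¹ * w⁻¹ ∈ F₀ := by
      rw [mul_assoc, mul_assoc, ← mul_assoc w]
      exact F₀.mul_mem hf ((Subgroup.mem_normalizer_iff.mp (hMF (hWM hw)) _).mp (F₀.inv_mem hf))
    obtain ⟨j, hj⟩ := IsPGroup.iff_card.mp hs.pGroup
    have h3 : f * w * f⁻¹ * w⁻¹ = 1 := orderOf_eq_one_iff.mp (Nat.eq_one_of_dvd_coprimes (hFc.pow_right j)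
      (Subgroup.orderOf_dvd_natCard F₀ h2) (hj ▸ Subgroup.orderOf_dvd_natCard W h1))
    rwa [mul_inv_eq_one, mul_inv_eq_iff_eq_mul] at h3
  have hfact : ∀ m ∈ M, ∃ f ∈ F₀, ∃ n ∈ M, n ∈ Subgroup.normalizer (Z : Set G) ∧ m = f * n := by
    intro m hm
    have htop := ZJ.sup_normalizer_eq_top (by have := h.five; omega) (ZJ.hns_subgroup h.hns M) S (pPrimeCore p M)
      (Core.card_pPrimeCore_coprime p M) (Core.centralizer_pCore_le_of_isSolvable (Core.pPrimeCore_quotient_pPrimeCore p M))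
    obtain ⟨f, hf, n, hn, e⟩ := Subgroup.mem_sup_of_normal_left.mp (htop ▸ Subgroup.mem_top (⟨m, hm⟩ : M))
    refine ⟨(f : G), ⟨f, hf, rfl⟩, (n : G), n.2, ?_, (congrArg Subtype.val e).symm⟩
    have h1 := Subgroup.le_normalizer_map M.subtype ⟨n, hn, rfl⟩
    rwa [ZJ.ctMap _ M.subtype_injective.injOn] at h1
  have hcyc : ¬ IsCyclic F₀ := by
    intro hcy
    refine hKZ fun k hk => ?_
    obtain ⟨f, hf, n, -, hn, rfl⟩ := hfact k (hKM hk)
    refine Subgroup.mul_mem _ ((Subgroup.centralizer_le_normalizer _) (Subgroup.mem_centralizer_iff.mpr fun v hv => ?_)) hn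
    obtain ⟨i, hi⟩ := (IsPGroup.iff_orderOf.mp hPp) ⟨v, hZP hv⟩
    rw [← Subgroup.orderOf_coe] at hi
    exact mul_inv_eq_iff_eq_mul.mp (conj_eq_of_isCyclic hcy (fun x hx => h.exp F₀ hFc x hx)
      (hMF (hPM (hZP hv))) hi f hf)
  obtain ⟨g, hg, hgM⟩ : ∃ g ∈ Subgroup.normalizer (Z : Set G), g ∉ M := SetLike.not_le_iff_exists.mp hY
  have hCW : ∀ x ∈ W, x ≠ 1 → Subgroup.centralizer ({x} : Set G) ≤ M := by
    intro x hx hx1
    refine h.noncyclic_le hs hFM hFc hcyc (h.centralizer_singleton_ne_top hx1) fun f hf =>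
      Subgroup.mem_centralizer_iff.mpr fun y hy => ?_
    rw [Set.mem_singleton_iff] at hy; rw [hy]; exact (hFW f hf x hx).symm
  -- conjugates `u = g x g⁻¹` of elements of `W ∩ Z`
  have hno : ∀ x ∈ W ⊓ Z, x ≠ 1 → ∀ y ∈ M, (orderOf y).Coprime p → y * (g * x * g⁻¹) = g * x * g⁻¹ * y → y = 1 := by
    intro x hx hx1 y hy hyp hcomm
    by_contra hy1
    obtain ⟨m, hm, hle⟩ := (h.centralizer_le_of_mem hs hy hy1 hyp).2
    have hy' : g⁻¹ * y * g ∈ M := hCW x hx.1 hx1 (Subgroup.mem_centralizer_iff.mpr fun v hv => by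
      rw [Set.mem_singleton_iff] at hv; rw [hv]
      calc x * (g⁻¹ * y * g) = g⁻¹ * (g * x * g⁻¹ * y) * g := by group
        _ = g⁻¹ * y * g * x := by rw [← hcomm]; group)
    have hc := (h.centralizer_le_of_mem hs hy' (fun e => hy1 (by
      have := congrArg (fun t => g * t * g⁻¹) e
      simpa [mul_assoc] using this)) (by
      rw [show g⁻¹ * y * g = (MulAut.conj g⁻¹) y by simp, MulEquiv.orderOf_eq]; exact hyp)).1
    have hgm : g⁻¹ * m ∈ M := h.mem_of_map_le hs (by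
      rintro _ ⟨k, hk, rfl⟩
      have hk' := Subgroup.mem_centralizer_iff.mp (hle ⟨k, hk, rfl⟩) y rfl
      simp only [MulEquiv.coe_toMonoidHom, MulAut.conj_apply] at hk'
      refine hc (Subgroup.mem_centralizer_iff.mpr fun v hv => ?_)
      rw [Set.mem_singleton_iff] at hv; rw [hv]
      show g⁻¹ * y * g * (g⁻¹ * m * k * (g⁻¹ * m)⁻¹) = g⁻¹ * m * k * (g⁻¹ * m)⁻¹ * (g⁻¹ * y * g)
      calc g⁻¹ * y * g * (g⁻¹ * m * k * (g⁻¹ * m)⁻¹) = g⁻¹ * (y * (m * k * m⁻¹)) * g := by group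
        _ = g⁻¹ * m * k * (g⁻¹ * m)⁻¹ * (g⁻¹ * y * g) := by rw [hk']; group)
    refine hgM (inv_inv g ▸ M.inv_mem ?_)
    simpa using M.mul_mem hgm (M.inv_mem hm)
  -- `W₀ = W ∩ Z` is cyclic
  set W₀ := W ⊓ Z with hW₀
  set X := W₀.map (MulAut.conj g).toMonoidHom with hX
  have hXZ : X ≤ Z := by
    rintro _ ⟨x, hx, rfl⟩; exact (Subgroup.mem_normalizer_iff.mp hg x).mp hx.2
  have hW₀c : IsCyclic W₀ := by
    by_contra hnc
    have hXc : ¬ IsCyclic X := fun e => hnc
      (((W₀.equivMapOfInjective (MulAut.conj g).toMonoidHom (MulAut.conj g).injective).isCyclic).mpr e)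
    haveI : IsMulCommutative X := ⟨⟨fun a b => Subtype.ext
      (Subgroup.mem_centralizer_iff.mp (hXZ b.2).2 a ((inf_le_left : Z ≤ _) (hXZ a.2)))⟩⟩
    have hXp : IsPGroup p X := (hPp.to_le hZP).to_le hXZ
    have hcop : (Nat.card X).Coprime (Nat.card F₀) := by
      obtain ⟨i, hi⟩ := IsPGroup.iff_card.mp hXp
      rw [hi]; exact (hFc.pow_right i).symm
    have hj := Coprime.eq_centralizerJoin (N := F₀) hXc ((hXZ.trans (hZP.trans hPM)).trans hMF) hcop
    have hbot : F₀ = ⊥ := by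
      refine le_bot_iff.mp (hj.symm.trans_le (iSup_le fun e => ?_))
      obtain ⟨x, hx, hxe⟩ := e.2.1
      intro y ⟨hyF, hye⟩
      refine Subgroup.mem_bot.mpr (hno x hx (fun e' => e.2.2 (by rw [← hxe, e']; exact map_one _)) y (hFM hyF)
        (hFc.coprime_dvd_left (Subgroup.orderOf_dvd_natCard F₀ hyF)) ?_)
      have h2 := Subgroup.mem_centralizer_iff.mp hye e.1 rfl
      rw [← hxe] at h2
      exact h2.symm
    exact hcyc (by rw [hbot]; infer_instance)
  have hMW₀ : M ≤ Subgroup.normalizer (W₀ : Set G) := by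
    intro m hm
    obtain ⟨f, hf, n, hnM, hn, rfl⟩ := hfact m hm
    refine Subgroup.mul_mem _ ((Subgroup.centralizer_le_normalizer _)
      (Subgroup.mem_centralizer_iff.mpr fun x hx => (hFW f hf x hx.1).symm)) ?_
    exact Subgroup.inf_normalizer_le_normalizer_inf ⟨h.M_le_normalizer hs hnM, hn⟩
  have hKW₀ : ∀ k ∈ K, ∀ x ∈ W₀, x * k = k * x := fun k hk x hx =>
    Subgroup.mem_centralizer_iff.mp ((h.le_commutator hs).trans (commutator_le_centralizer_of_cyclic hW₀c hMW₀) hk) x hx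
  -- elements of `K ∩ N(Z)` centralize `Z`, so are trivial
  haveI hnK : (pCore p M ⊔ K.subgroupOf M).Normal := (solvable_hall (K.subgroupOf M)
    (by rw [Nat.card_congr (Subgroup.subgroupOfEquivOfLe hKM).toEquiv]; exact hs.isMax.2.1)
    (h.relIndex_eq hs.isMax (h.setup_ne_top hs) hKM)).1
  haveI : (pCore p M).Normal := Subgroup.sSup_normal _ (fun _ h => h.1)
  refine hWK fun w hw => Subgroup.mem_centralizer_iff.mpr fun k hk => ?_
  obtain ⟨f, hf, n, hnM, hn, rfl⟩ := hfact k (hKM hk)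
  have hnK' : n ∈ K := by simpa using K.mul_mem (K.inv_mem (hFK hf)) hk
  have hnp : (orderOf n).Coprime p := hs.isMax.2.1.coprime_dvd_left (Subgroup.orderOf_dvd_natCard K hnK')
  have hcZ : ∀ x ∈ Z, n * x = x * n := by
    intro x hx
    set t := n * x * n⁻¹ * x⁻¹ with ht
    have htZ : t ∈ Z := Z.mul_mem ((Subgroup.mem_normalizer_iff.mp hn x).mp hx) (Z.inv_mem hx)
    set L := pCore p M ⊔ K.subgroupOf M with hL
    have htL : (⟨t, hPM (hZP htZ)⟩ : M) ∈ L := by
      have h1 : (⟨n, hnM⟩ : M) ∈ L := Subgroup.mem_sup_right hnK'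
      have h2 := L.mul_mem h1 (hnK.conj_mem _ (L.inv_mem h1) ⟨x, hPM (hZP hx)⟩)
      convert h2 using 1
      ext
      simp [ht, mul_assoc]
    have htW : t ∈ W := by
      set f' := QuotientGroup.mk' (pCore p M)
      have h3 : f' ⟨t, hPM (hZP htZ)⟩ ∈ (K.subgroupOf M).map f' := by
        have h4 := Subgroup.mem_map_of_mem f' htL
        rwa [hL, Subgroup.map_sup, QuotientGroup.map_mk'_self, bot_sup_eq] at h4
      obtain ⟨i, hi⟩ := (IsPGroup.iff_orderOf.mp hPp) ⟨t, hZP htZ⟩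
      rw [← Subgroup.orderOf_coe] at hi
      have h5 : f' ⟨t, hPM (hZP htZ)⟩ = 1 := by
        refine orderOf_eq_one_iff.mp (Nat.eq_one_of_dvd_coprimes (hs.isMax.2.1.pow_right i) ?_ ?_)
        · exact (Subgroup.orderOf_dvd_natCard _ h3).trans ((Subgroup.card_map_dvd _ f').trans
            (dvd_of_eq (Nat.card_congr (Subgroup.subgroupOfEquivOfLe hKM).toEquiv)))
        · refine (orderOf_map_dvd f' _).trans (dvd_of_eq ?_)
          rw [← Subgroup.orderOf_coe]; exact hi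
      exact hs.max _ (isPGroup_opOf (p := p) M) (hKM.trans (le_normalizer_opOf M))
        ⟨_, (QuotientGroup.eq_one_iff _).mp h5, rfl⟩
    have hc : n * t = t * n := (hKW₀ n hnK' t ⟨htW, htZ⟩).symm
    have h6 := PLocal.conj_pow_eq (a := n) (v := x) (w := t) (by rw [ht]; group) hc (orderOf n)
    rw [pow_orderOf_eq_one, one_mul, inv_one, mul_one, eq_comm, mul_eq_right] at h6
    obtain ⟨i, hi⟩ := (IsPGroup.iff_orderOf.mp hPp) ⟨t, hZP htZ⟩
    rw [← Subgroup.orderOf_coe] at hi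
    simp only at hi
    have h7 : t = 1 := orderOf_eq_one_iff.mp (Nat.eq_one_of_dvd_coprimes (hnp.pow_right i)
      (orderOf_dvd_of_pow_eq_one h6) (dvd_of_eq hi))
    rwa [ht, mul_inv_eq_one, mul_inv_eq_iff_eq_mul] at h7
  have hn1 : n = 1 := hno z ⟨hzW, hzZ⟩ hz1 n hnM hnp (hcZ _ ((Subgroup.mem_normalizer_iff.mp hg z).mp hzZ))
  rw [hn1, mul_one]
  exact hFW f hf w hw

end Hyp

end Cfsg.Agent.Transfer.PPrimeExp
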